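import Cfsg.Agent.Lib.BPair.Inertial
import Cfsg.Agent.Lib.Block.Jordan

/-!
# The inertial quotient of a block with cyclic defect group
-/

set_option autoImplicit false
set_option linter.unusedSectionVars false
set_option linter.unusedSimpArgs false
set_option linter.unusedVariables false

open scoped ComplexConjugate Pointwise
open Cfsg MonoidAlgebra
open Cfsg.Agent.Lib.Block Cfsg.Agent.Lib.Char Cfsg.Agent.Lib.CharExtra

namespace Cfsg.Agent.Lib.BPair

attribute [local instance] subFintype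

section Basic

variable {G : Type*} [Group G] {p : ℕ} [hp : Fact p.Prime]

theorem comm_of_cyclic {P : Subgroup G} (hc : IsCyclic P) : ∀ x ∈ P, ∀ y ∈ P, x * y = y * x := by
  intro a ha b hb
  obtain ⟨g, hg⟩ := hc.exists_generator
  obtain ⟨i, hi⟩ := Subgroup.mem_zpowers_iff.1 (hg ⟨a, ha⟩)
  obtain ⟨j, hj⟩ := Subgroup.mem_zpowers_iff.1 (hg ⟨b, hb⟩)
  have := zpow_mul_comm g i j
  rw [hi, hj] at this
  exact congrArg Subtype.val this

/-- A nontrivial element of a `p`-group has a power of order `p`. -/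
theorem exists_pow_orderOf_eq_prime {y : G} (hy1 : y ≠ 1) (hy : ∃ k : ℕ, y ^ p ^ k = 1) :
    ∃ i : ℕ, orderOf (y ^ p ^ i) = p := by
  obtain ⟨k, hk⟩ := hy
  obtain ⟨m, -, hm⟩ := (Nat.dvd_prime_pow hp.out).1 (orderOf_dvd_of_pow_eq_one hk)
  have hm0 : m ≠ 0 := by
    rintro rfl
    rw [pow_zero, orderOf_eq_one_iff] at hm
    exact hy1 hm
  obtain ⟨n, rfl⟩ := Nat.exists_eq_succ_of_ne_zero hm0
  refine ⟨n, ?_⟩
  have hdvd : p ^ n ∣ orderOf y := by
    rw [hm]
    exact pow_dvd_pow _ (Nat.le_succ n)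
  rw [orderOf_pow_of_dvd (pow_ne_zero _ hp.out.ne_zero) hdvd, hm, pow_succ,
    Nat.mul_div_cancel_left _ (pow_pos hp.out.pos n)]

/-- In a finite cyclic group two elements of order `p` generate the same subgroup. -/
theorem mem_zpowers_of_orderOf_eq_prime {C : Type*} [Group C] [Finite C] [IsCyclic C] {a b : C} (ha : orderOf a = p)
    (hb : orderOf b = p) : b ∈ Subgroup.zpowers a := by
  classical
  haveI := Fintype.ofFinite C
  have h1 := IsCyclic.card_pow_eq_one_le (α := C) (n := p) hp.out.pos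
  have h2 : (Finset.univ.filter fun y : C => y ∈ Subgroup.zpowers a) ⊆ Finset.univ.filter fun y : C => y ^ p = 1 := by
    intro y hy
    simp only [Finset.mem_filter, Finset.mem_univ, true_and] at hy ⊢
    obtain ⟨k, rfl⟩ := Subgroup.mem_zpowers_iff.1 hy
    rw [← zpow_natCast, ← zpow_mul, mul_comm, zpow_mul, zpow_natCast, ← ha, pow_orderOf_eq_one, one_zpow]
  have h3 : (Finset.univ.filter fun y : C => y ∈ Subgroup.zpowers a).card = p := by
    have := Nat.card_zpowers a
    rw [ha, Nat.card_eq_fintype_card, Fintype.card_subtype] at this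
    exact this
  have h4 := Finset.eq_of_subset_of_card_le h2 (by rw [h3]; exact h1)
  have h5 : b ∈ Finset.univ.filter fun y : C => y ^ p = 1 := by
    simp only [Finset.mem_filter, Finset.mem_univ, true_and]
    rw [← hb, pow_orderOf_eq_one]
  rw [← h4] at h5
  simpa using h5

/-- A `p`-regular automorphism of a cyclic `p`-group with a nontrivial fixed point is trivial. -/
theorem mem_cen_of_regular_of_fix [Finite G] {P : Subgroup G} (hc : IsCyclic P) (hP : IsPGroup p P) {s : G}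
    (hs : s ∈ Subgroup.normalizer (P : Set G)) (hreg : ¬ p ∣ orderOf s) {x : G} (hx : x ∈ P) (hx1 : x ≠ 1)
    (hsx : s * x * s⁻¹ = x) : s ∈ Subgroup.centralizer (P : Set G) := by
  classical
  have hcomm : ∀ a ∈ P, ∀ b ∈ P, a * b = b * a := comm_of_cyclic hc
  rw [Subgroup.mem_centralizer_iff]
  intro u hu
  by_contra hne
  have hsuu : s * u * s⁻¹ ∈ P := (Subgroup.mem_normalizer_iff.1 hs u).1 hu
  obtain ⟨w, hw⟩ : ∃ w, w = s * u * s⁻¹ * u⁻¹ := ⟨_, rfl⟩
  have hwP : w ∈ P := hw ▸ P.mul_mem hsuu (P.inv_mem hu)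
  have hw1 : w ≠ 1 := by
    intro h
    rw [h] at hw
    apply hne
    have h1 : s * u * s⁻¹ = u := by
      have := hw.symm
      rwa [mul_inv_eq_one] at this
    exact (mul_inv_eq_iff_eq_mul.1 h1).symm
  have hpow : ∀ y ∈ P, ∃ k : ℕ, y ^ p ^ k = 1 := by
    intro y hy
    obtain ⟨k, hk⟩ := hP ⟨y, hy⟩
    exact ⟨k, congrArg Subtype.val hk⟩
  obtain ⟨i, hi⟩ := exists_pow_orderOf_eq_prime (p := p) hx1 (hpow x hx)
  obtain ⟨j, hj⟩ := exists_pow_orderOf_eq_prime (p := p) hw1 (hpow w hwP)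
  have ha : (⟨x ^ p ^ i, P.pow_mem hx _⟩ : P) ∈ Set.univ := trivial
  have hmem : (⟨w ^ p ^ j, P.pow_mem hwP _⟩ : P) ∈ Subgroup.zpowers (⟨x ^ p ^ i, P.pow_mem hx _⟩ : P) := by
    haveI := hc
    apply mem_zpowers_of_orderOf_eq_prime (p := p)
    · rw [← Subgroup.orderOf_coe]
      exact hi
    · rw [← Subgroup.orderOf_coe]
      exact hj
  obtain ⟨m, hm⟩ := Subgroup.mem_zpowers_iff.1 hmem
  have hb : w ^ p ^ j = (x ^ p ^ i) ^ m := by
    have := congrArg Subtype.val hm
    simpa using this.symm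
  obtain ⟨b, hbdef⟩ : ∃ b, b = w ^ p ^ j := ⟨_, rfl⟩
  have hsconj : ∀ (y : G) (k : ℕ), s * y ^ k * s⁻¹ = (s * y * s⁻¹) ^ k := by
    intro y k
    exact (conj_pow).symm
  have hsb : s * b * s⁻¹ = b := by
    rw [hbdef, hb]
    have e1 : s * (x ^ p ^ i) ^ m * s⁻¹ = (s * x ^ p ^ i * s⁻¹) ^ m := (conj_zpow).symm
    rw [e1, hsconj, hsx]
  obtain ⟨v, hv⟩ : ∃ v, v = u ^ p ^ j := ⟨_, rfl⟩
  have hvP : v ∈ P := hv ▸ P.pow_mem hu _
  have hsv : s * v * s⁻¹ = b * v := by
    have e1 : s * u * s⁻¹ = w * u := by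
      rw [hw]
      group
    rw [hv, hsconj, e1, hbdef]
    exact (Commute.mul_pow (show Commute w u from hcomm w hwP u hu) _)
  have hbP : b ∈ P := hbdef ▸ P.pow_mem hwP _
  have hiter : ∀ n : ℕ, s ^ n * v * (s ^ n)⁻¹ = b ^ n * v := by
    intro n
    induction n with
    | zero => simp
    | succ n ih =>
      have e1 : s ^ (n + 1) * v * (s ^ (n + 1))⁻¹ = s * (s ^ n * v * (s ^ n)⁻¹) * s⁻¹ := by
        rw [pow_succ']
        group
      rw [e1, ih]
      have e2 : s * (b ^ n * v) * s⁻¹ = (s * b ^ n * s⁻¹) * (s * v * s⁻¹) := by group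
      rw [e2, hsconj, hsb, hsv, pow_succ, mul_assoc]
  have h1 := hiter (orderOf s)
  rw [pow_orderOf_eq_one] at h1
  simp only [one_mul, inv_one, mul_one] at h1
  have h2 : b ^ orderOf s = 1 := by
    have := h1.symm
    rwa [mul_eq_right] at this
  have h3 : orderOf b ∣ orderOf s := orderOf_dvd_of_pow_eq_one h2
  rw [hbdef, hj] at h3
  exact hreg h3

end Basic

section Inertial

variable {G : Type*} [Group G] [Fintype G] {M : Ideal AlgInt} [hMp : M.IsPrime] {p : ℕ} [hp : Fact p.Prime]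
  {B : Set (IrrCharacter G)} {P : Subgroup G} {c : Set (IrrCharacter (Cen P))}

/-- **The inertial quotient acts freely on a cyclic defect group.** -/
theorem free_of_cyclic (hM : IsPModular p M) (hmax : IsMaximalBrauerPair p M B P c) (hc : IsCyclic P)
    {g : G} (hgN : g ∈ Subgroup.normalizer (P : Set G)) (hgs : StabilizesBlock (Cen P) c g) {x : G} (hx : x ∈ P)
    (hx1 : x ≠ 1) (hgx : g * x * g⁻¹ = x) : g ∈ Cen P := by
  classical
  have hPe := (isBrauerPairOf_iff.1 hmax.1).1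
  have hab := comm_of_cyclic hc
  obtain ⟨a, b, hab', -, ⟨k, hk⟩, hbreg, ha, hb⟩ := exists_jordan (p := p) g
  obtain ⟨T, hT⟩ := exists_pairT hPe.2
  have hgT : g ∈ T := (hT g).2 ⟨hgN, hgs⟩
  have hzT : Subgroup.zpowers g ≤ T := by
    rw [Subgroup.zpowers_le]
    exact hgT
  have haC : a ∈ Cen P := by
    obtain ⟨h1, h2⟩ := (hT a).1 (hzT ha)
    refine mem_cen_of_pElt hM hmax hab h1 h2 (k := k) ?_
    rw [← hk]
    exact pow_orderOf_eq_one a
  have hbC : b ∈ Cen P := by
    obtain ⟨h1, h2⟩ := (hT b).1 (hzT hb)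
    obtain ⟨n, rfl⟩ := Subgroup.mem_zpowers_iff.1 hb
    refine mem_cen_of_regular_of_fix hc hPe.1 h1 hbreg hx hx1 ?_
    have h3 : Commute g x := mul_inv_eq_iff_eq_mul.1 hgx
    have h4 : Commute (g ^ n) x := h3.zpow_left n
    rw [h4.eq]
    group
  rw [← hab']
  exact Subgroup.mul_mem _ haC hbC

/-- The structure of the inertial quotient. -/
theorem inertial_cyclic_aux {T : Subgroup G} (hP1 : P ≠ ⊥) (hc : IsCyclic P) (hPp : IsPGroup p P)
    (hTN : T ≤ Subgroup.normalizer (P : Set G))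
    (hfree : ∀ g ∈ T, ∀ x ∈ P, x ≠ 1 → g * x * g⁻¹ = x → g ∈ Cen P)
    [hn : ((Cen P).subgroupOf T).Normal] :
    IsCyclic (T ⧸ (Cen P).subgroupOf T) ∧ (Cen P).relIndex T ∣ p - 1 := by
  classical
  obtain ⟨x, hx, hx1⟩ := P.bot_or_exists_ne_one.resolve_left hP1
  obtain ⟨k₀, hk₀⟩ := hPp ⟨x, hx⟩
  have hk₀' : x ^ p ^ k₀ = 1 := congrArg Subtype.val hk₀
  obtain ⟨i, hi⟩ := exists_pow_orderOf_eq_prime (p := p) hx1 ⟨k₀, hk₀'⟩
  obtain ⟨z, hz⟩ : ∃ z, z = x ^ p ^ i := ⟨_, rfl⟩
  rw [← hz] at hi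
  have hzP : z ∈ P := hz ▸ P.pow_mem hx _
  have hz1 : z ≠ 1 := by
    intro h
    rw [h, orderOf_one] at hi
    exact hp.out.one_lt.ne hi
  have hZP : Subgroup.zpowers z ≤ P := by
    rw [Subgroup.zpowers_le]
    exact hzP
  have hconj : ∀ t ∈ T, t * z * t⁻¹ ∈ Subgroup.zpowers z := by
    intro t ht
    have h1 : t * z * t⁻¹ ∈ P := (Subgroup.mem_normalizer_iff.1 (hTN ht) z).1 hzP
    have h2 : orderOf (t * z * t⁻¹) = p := by
      rw [orderOf_conj]
      exact hi
    have h3 : (⟨t * z * t⁻¹, h1⟩ : P) ∈ Subgroup.zpowers (⟨z, hzP⟩ : P) := by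
      haveI := hc
      apply mem_zpowers_of_orderOf_eq_prime (p := p)
      · rw [← Subgroup.orderOf_coe]
        exact hi
      · rw [← Subgroup.orderOf_coe]
        exact h2
    obtain ⟨m, hm⟩ := Subgroup.mem_zpowers_iff.1 h3
    have := congrArg Subtype.val hm
    exact Subgroup.mem_zpowers_iff.2 ⟨m, by simpa using this⟩
  have hTNZ : T ≤ Subgroup.normalizer ((Subgroup.zpowers z : Subgroup G) : Set G) := by
    intro t ht
    rw [Subgroup.mem_normalizer_iff]
    intro v
    constructor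
    · intro hv
      obtain ⟨m, rfl⟩ := Subgroup.mem_zpowers_iff.1 hv
      rw [← conj_zpow]
      exact Subgroup.zpow_mem _ (hconj t ht) m
    · intro hv
      have h4 : Function.Injective (fun w : Subgroup.zpowers z => (⟨t * w * t⁻¹, by
          obtain ⟨m, hm⟩ := Subgroup.mem_zpowers_iff.1 w.2
          rw [← hm, ← conj_zpow]
          exact Subgroup.zpow_mem _ (hconj t ht) m⟩ : Subgroup.zpowers z)) := by
        intro a b hab
        have h5 := congrArg Subtype.val hab
        exact Subtype.ext (by simpa using h5)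
      have h6 := (Finite.injective_iff_surjective.1 h4) ⟨t * v * t⁻¹, hv⟩
      obtain ⟨w, hw⟩ := h6
      have h7 : t * (w : G) * t⁻¹ = t * v * t⁻¹ := congrArg Subtype.val hw
      have h8 : (w : G) = v := by simpa using h7
      rw [← h8]
      exact w.2
  obtain ⟨φ, hφ⟩ : ∃ φ : T →* MulAut (Subgroup.zpowers z),
      φ = (Subgroup.normalizerMonoidHom (Subgroup.zpowers z)).comp (Subgroup.inclusion hTNZ) := ⟨_, rfl⟩
  have hφapp : ∀ (t : T) (w : Subgroup.zpowers z), ((φ t w : Subgroup.zpowers z) : G) = (t : G) * w * (t : G)⁻¹ := by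
    intro t w
    rw [hφ]
    rfl
  have hker : φ.ker = (Cen P).subgroupOf T := by
    ext t
    rw [MonoidHom.mem_ker, Subgroup.mem_subgroupOf]
    constructor
    · intro h
      have h1 := hφapp t ⟨z, Subgroup.mem_zpowers z⟩
      rw [h] at h1
      exact hfree t t.2 z hzP hz1 h1.symm
    · intro h
      ext w
      rw [hφapp]
      show (t : G) * w * (t : G)⁻¹ = ((1 : MulAut (Subgroup.zpowers z)) w : Subgroup.zpowers z)
      have h2 : (t : G) * w = w * (t : G) := (Subgroup.mem_centralizer_iff.1 h w (hZP w.2)).symm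
      rw [h2]
      simp
  haveI hcZ : IsCyclic (Subgroup.zpowers z) := inferInstance
  have hcard : Nat.card (Subgroup.zpowers z) = p := by
    rw [Nat.card_zpowers, hi]
  have e : MulAut (Subgroup.zpowers z) ≃* (ZMod p)ˣ := hcard ▸ IsCyclic.mulAutMulEquiv (Subgroup.zpowers z)
  haveI hcA : IsCyclic (MulAut (Subgroup.zpowers z)) := isCyclic_of_surjective e.symm e.symm.surjective
  have hiso : (T ⧸ (Cen P).subgroupOf T) ≃* φ.range :=
    (QuotientGroup.quotientMulEquivOfEq hker.symm).trans (QuotientGroup.quotientKerEquivRange φ)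
  refine ⟨isCyclic_of_surjective hiso.symm hiso.symm.surjective, ?_⟩
  have h1 : (Cen P).relIndex T = Nat.card φ.range := by
    show ((Cen P).subgroupOf T).index = _
    rw [Subgroup.index_eq_card]
    exact Nat.card_congr hiso.toEquiv
  rw [h1]
  have h2 : Nat.card φ.range ∣ Nat.card (MulAut (Subgroup.zpowers z)) := Subgroup.card_subgroup_dvd_card _
  have h3 : Nat.card (MulAut (Subgroup.zpowers z)) = p - 1 := by
    rw [IsCyclic.card_mulAut, hcard, Nat.totient_prime hp.out]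
  rwa [h3] at h2

end Inertial

end Cfsg.Agent.Lib.BPair
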