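import Cfsg.Agent.Lib.BPair.FongLocal
import Cfsg.Agent.Lib.Char.ProjDvd
import Cfsg.Agent.Lib.Coprime.CopDeg
import Cfsg.Agent.Lib.Degree.Inflate
import Cfsg.Agent.Lib.PLocal.QuadSep

/-!
# Heights in `p`-solvable groups

`χ(1)_p |Z(D)| ≤ |G|_p` for `χ` in a block with defect group `D` of a `p`-solvable group.
-/

set_option autoImplicit false
set_option linter.unusedSectionVars false
set_option linter.unusedSimpArgs false
set_option linter.unusedVariables false

open scoped ComplexConjugate Pointwise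
open Cfsg MonoidAlgebra
open Cfsg.Agent.Lib.Block Cfsg.Agent.Lib.Char Cfsg.Agent.Lib.CharExtra

namespace Cfsg.Agent.Lib.BPair

attribute [local instance] subFintype

universe u

section Aux

variable {G : Type u} [Group G] [Fintype G] {M : Ideal AlgInt} [hMp : M.IsPrime] {p : ℕ} [hp : Fact p.Prime]

theorem exists_conj_of_defect (hM : IsPModular p M) {B : Set (IrrCharacter G)} (hB : IsPBlock M B) {D E : Subgroup G}
    (hD : IsDefectGroup p M B D) (hE : IsDefectGroup p M B E) : ∃ x : G, E = cj x D := by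
  classical
  obtain ⟨f, hf⟩ := exists_pair_on_defect hM hE hB
  obtain ⟨x, hx⟩ := exists_conj_le_defect hM hf hD
  refine ⟨x, Subgroup.eq_of_le_of_card_ge hx ?_⟩
  rw [card_cj, card_defect_group hM hB hD, card_defect_group hM hB hE]

theorem card_center_cj (x : G) (D : Subgroup G) :
    Nat.card (Subgroup.center (cj x D)) = Nat.card (Subgroup.center D) := by
  have e : D ≃* cj x D := Subgroup.equivMapOfInjective D _ (MulAut.conj x).injective
  exact (Nat.card_congr (Subgroup.centerCongr e).toEquiv).symm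

theorem card_center_of_defect (hM : IsPModular p M) {B : Set (IrrCharacter G)} (hB : IsPBlock M B) {D E : Subgroup G}
    (hD : IsDefectGroup p M B D) (hE : IsDefectGroup p M B E) :
    Nat.card (Subgroup.center E) = Nat.card (Subgroup.center D) := by
  obtain ⟨x, rfl⟩ := exists_conj_of_defect hM hB hD hE
  exact card_center_cj x D

/-- Fong–Reynolds for a character of a normal `p'`-subgroup. -/
theorem fr_step (hM : IsPModular p M) {K : Subgroup G} [hKn : K.Normal] (hK : ¬ p ∣ Nat.card K) (θ : IrrCharacter K)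
    (χ : IrrCharacter G) (hχ : classInner (fun n : K => (χ : G → ℂ) n) (θ : K → ℂ) ≠ 0) {T : Subgroup G}
    (hT : ∀ g : G, g ∈ T ↔ conjIrr K g θ = θ) (hKT : K ≤ T) :
    ∃ τ : IrrCharacter T, charDegree (χ : G → ℂ) = T.index * charDegree (τ : T → ℂ) ∧
      ∀ D' : Subgroup T, IsDefectGroup p M (blockOf M (τ : T → ℂ)) D' →
        IsDefectGroup p M (blockOf M (χ : G → ℂ)) (D'.map T.subtype) := by
  classical
  have hb : IsPBlock M ({θ} : Set (IrrCharacter K)) := by
    rw [← blockOf_singleton_of_coprime K hM hK θ]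
    exact isPBlock_blockOf θ
  have hT' : ∀ g : G, g ∈ T ↔ ∀ θ' ∈ ({θ} : Set (IrrCharacter K)), conjIrr K g θ' ∈ ({θ} : Set (IrrCharacter K)) := by
    intro g
    rw [hT]
    simp
  have hdisj := hdisj_overIn (M := M) hKT hb hT'
  obtain ⟨τ, h1, h2⟩ := exists_constituent_between hKT χ hχ
  have hτO : τ ∈ OverIn hKT ({θ} : Set (IrrCharacter K)) := ⟨θ, rfl, h2⟩
  have hχind := eq_ind_of_constituent hdisj hτO h1
  have hst : ∀ t ∈ T, ∀ θ' ∈ ({θ} : Set (IrrCharacter K)), conjIrr K t θ' ∈ ({θ} : Set (IrrCharacter K)) :=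
    fun t ht => (hT' t).1 ht
  have hsub : blockOf M (τ : T → ℂ) ⊆ OverIn hKT ({θ} : Set (IrrCharacter K)) :=
    block_subset_of_mem (isBlockUnion_overIn hKT hst (isBlockUnion_of_isPBlock hb)) (isPBlock_blockOf τ)
      (mem_blockOf_self τ) hτO
  obtain ⟨hind, hbl, hmem⟩ := fr_induced hdisj (isPBlock_blockOf τ) hsub (mem_blockOf_self τ)
  refine ⟨τ, ?_, fun D' hD' => ?_⟩
  · rw [hχind, charDegree_ind]
  · rw [hχind]
    refine defect_ind hM hdisj (isPBlock_blockOf τ) hsub hind ?_ hD'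
    ext χ'
    rw [hmem]
    rfl

/-- Knörr's theorem in the situation of a block over an invariant character of `K₃ ⊲ X`, `N₃/K₃` a `p`-group. -/
theorem exists_defect_sandwich (hM : IsPModular p M) {X : Type u} [Group X] [Fintype X] {K₃ N₃ : Subgroup X}
    [hKn : K₃.Normal] [hNn : N₃.Normal] (hKN : K₃ ≤ N₃) (hK₃ : ¬ p ∣ Nat.card K₃)
    (hNp : ∀ z ∈ N₃, ∃ n : ℕ, z ^ p ^ n ∈ K₃) {ζ : IrrCharacter K₃} (hinv : ∀ g : X, conjIrr K₃ g ζ = ζ)
    {τ : IrrCharacter X} (hτ : τ ∈ overSet K₃ ({ζ} : Set (IrrCharacter K₃))) {R : Subgroup X}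
    (hR : Cfsg.Agent.Lib.Techniques.SylowIn p R ⊤) :
    ∃ D : Subgroup X, IsDefectGroup p M (blockOf M (τ : X → ℂ)) D ∧ D ≤ R ∧ R ⊓ N₃ ≤ D := by
  classical
  obtain ⟨ψ, hψ⟩ := exists_constituent N₃ τ
  have hψ' := mem_overSet_transIrr K₃ N₃ hKN hinv hτ hψ
  have hK₃' : ¬ p ∣ Nat.card (K₃.subgroupOf N₃) := by
    rwa [Nat.card_congr (Subgroup.subgroupOfEquivOfLe hKN).toEquiv]
  have hinv' : ∀ g : N₃, conjIrr (K₃.subgroupOf N₃) g (transIrr K₃ N₃ hKN ζ) = transIrr K₃ N₃ hKN ζ := by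
    intro g
    rw [transIrr_conj hKN, hinv]
  have hidx : ∃ k : ℕ, ((K₃.subgroupOf N₃).subgroupOf (⊤ : Subgroup N₃)).index = p ^ k := by
    have hq : IsPGroup p (N₃ ⧸ K₃.subgroupOf N₃) := by
      intro q
      obtain ⟨y, rfl⟩ := QuotientGroup.mk_surjective q
      obtain ⟨k, hk⟩ := hNp y y.2
      refine ⟨k, ?_⟩
      rw [← QuotientGroup.mk_pow, QuotientGroup.eq_one_iff, Subgroup.mem_subgroupOf]
      simpa using hk
    obtain ⟨b, hb⟩ := IsPGroup.iff_card.1 hq
    refine ⟨b, ?_⟩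
    have : ((K₃.subgroupOf N₃).subgroupOf (⊤ : Subgroup N₃)).index = (K₃.subgroupOf N₃).index :=
      Subgroup.relIndex_top_right _
    rw [this, Subgroup.index_eq_card, hb]
  obtain ⟨c, hc, hcmem, hcSyl, -⟩ := fong_general (G := N₃) (K₃.subgroupOf N₃) ⊤ hM le_top hK₃' hidx
    (fun _ _ _ _ => le_top) hinv'
  have hψc : ψ ∈ c := by
    obtain ⟨θ₁, h1, h2⟩ := hψ'
    rw [Set.mem_singleton_iff] at h1
    rw [h1] at h2
    exact (hcmem ψ).2 h2
  have hnorm : (⊤ : Subgroup X) ≤ Subgroup.normalizer (N₃ : Set X) := by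
    rw [Subgroup.normalizer_eq_top_iff.2 hNn]
  have hS := hR.inf_of_normal le_top hnorm
  have hSD : IsDefectGroup p M c ((R ⊓ N₃).subgroupOf N₃) := hcSyl hS.toSylow
  obtain ⟨P, hP, hPe⟩ := exists_defect_inf_eq N₃ hM (isPBlock_blockOf τ) hc
    ⟨τ, mem_blockOf_self τ, ψ, hψc, hψ⟩ inf_le_right hSD
  have hPp : IsPGroup p P := isPGroup_of_isDefectGroup hP
  obtain ⟨h, -, hle⟩ := hR.exists_conj_le le_top hPp
  have hDef : IsDefectGroup p M (blockOf M (τ : X → ℂ)) (Cfsg.Agent.Lib.Techniques.conjS h P) := isDefectGroup_conj hP h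
  refine ⟨_, hDef, hle, ?_⟩
  have hN₃conj : Cfsg.Agent.Lib.Techniques.conjS h N₃ = N₃ := by
    rw [← Cfsg.Agent.Lib.Techniques.mem_normalizer_iff_conjS, Subgroup.normalizer_eq_top_iff.2 hNn]
    trivial
  have e1 : Cfsg.Agent.Lib.Techniques.conjS h (P ⊓ N₃) = Cfsg.Agent.Lib.Techniques.conjS h P ⊓ N₃ := by
    calc Cfsg.Agent.Lib.Techniques.conjS h (P ⊓ N₃)
        = Cfsg.Agent.Lib.Techniques.conjS h P ⊓ Cfsg.Agent.Lib.Techniques.conjS h N₃ :=
          Subgroup.map_inf _ _ _ (MulAut.conj h).injective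
      _ = _ := by rw [hN₃conj]
  have hle2 : Cfsg.Agent.Lib.Techniques.conjS h P ⊓ N₃ ≤ R ⊓ N₃ := inf_le_inf_right _ hle
  have hc2 : Nat.card (R ⊓ N₃ : Subgroup X) ≤ Nat.card (Cfsg.Agent.Lib.Techniques.conjS h P ⊓ N₃ : Subgroup X) := by
    rw [← e1, Cfsg.Agent.Lib.Techniques.card_conjS, hPe]
  have h5 := Subgroup.eq_of_le_of_card_ge hle2 hc2
  rw [← h5]
  exact inf_le_left

/-- Multiplicity of an invariant `p'`-degree constituent. -/
theorem factorization_add_le_of_invariant {W : Subgroup G} [hWn : W.Normal] {ψ : IrrCharacter W}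
    (hinv : ∀ g : G, conjIrr W g ψ = ψ) (hdeg : ¬ p ∣ charDegree (ψ : W → ℂ)) {χ : IrrCharacter G}
    (hχ : classInner (fun n : W => (χ : G → ℂ) n) (ψ : W → ℂ) ≠ 0) :
    (charDegree (χ : G → ℂ)).factorization p + (Nat.card W).factorization p ≤ (Nat.card G).factorization p := by
  classical
  obtain ⟨e, he⟩ := classInner_isCharacter_nat (IsCharacter.restrict W (IsIrrCharacter.isCharacter χ.2))
    (IsIrrCharacter.isCharacter ψ.2)
  have he0 : e ≠ 0 := by
    rintro rfl
    apply hχ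
    simpa using he
  have hdvd : e ∣ W.index := mult_dvd_index_of_invariant W ψ.2
    (fun g n => congrFun (congrArg Subtype.val (hinv g)) n) χ.2 he he0
  have hres := clifford_invariant hWn χ.2 ψ.2 (fun g => congrArg Subtype.val (hinv g)) hχ
  have hd : charDegree (χ : G → ℂ) = e * charDegree (ψ : W → ℂ) := by
    apply charDegree_natCast
    have h1 := congrFun hres 1
    simp only [Pi.smul_apply, smul_eq_mul, OneMemClass.coe_one] at h1
    rw [h1, he, map_one_eq_charDegree (IsIrrCharacter.isCharacter ψ.2)]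
    push_cast
    ring
  have hψ0 : charDegree (ψ : W → ℂ) ≠ 0 := (charDegree_pos_of_irr ψ.2).ne'
  rw [hd, Nat.factorization_mul he0 hψ0, ← Subgroup.card_mul_index W,
    Nat.factorization_mul Nat.card_pos.ne' Subgroup.index_ne_zero_of_finite]
  simp only [Finsupp.add_apply]
  have h2 : (charDegree (ψ : W → ℂ)).factorization p = 0 := Nat.factorization_eq_zero_of_not_dvd hdeg
  have h3 : e.factorization p ≤ W.index.factorization p :=
    (Nat.factorization_le_iff_dvd he0 Subgroup.index_ne_zero_of_finite).2 hdvd p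
  omega

/-- Characters over an invariant character, `W/K` an abelian `p`-group, have `p'`-degree. -/
theorem not_dvd_degree_of_abelian {K W : Subgroup G} [hKn : K.Normal] [hWn : W.Normal] (hKW : K ≤ W)
    (hK : ¬ p ∣ Nat.card K) (hWp : ∀ z ∈ W, ∃ n : ℕ, z ^ p ^ n ∈ K)
    (hWab : ∀ x ∈ W, ∀ y ∈ W, x * y * x⁻¹ * y⁻¹ ∈ K) {θ : IrrCharacter K} (hinv : ∀ g : G, conjIrr K g θ = θ)
    {χ : IrrCharacter G} (hχ : classInner (fun n : K => (χ : G → ℂ) n) (θ : K → ℂ) ≠ 0) {ψ : IrrCharacter W}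
    (hψ : classInner (fun n : W => (χ : G → ℂ) n) (ψ : W → ℂ) ≠ 0) : ¬ p ∣ charDegree (ψ : W → ℂ) := by
  classical
  have hψ' := mem_overSet_transIrr K W hKW hinv (χ := χ) ⟨θ, rfl, hχ⟩ hψ
  have hq : IsPGroup p (W ⧸ K.subgroupOf W) := by
    intro q
    obtain ⟨y, rfl⟩ := QuotientGroup.mk_surjective q
    obtain ⟨k, hk⟩ := hWp y y.2
    refine ⟨k, ?_⟩
    rw [← QuotientGroup.mk_pow, QuotientGroup.eq_one_iff, Subgroup.mem_subgroupOf]
    simpa using hk
  have hK₀ : ¬ p ∣ Nat.card (K.subgroupOf W) := by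
    rwa [Nat.card_congr (Subgroup.subgroupOfEquivOfLe hKW).toEquiv]
  obtain ⟨b, hb⟩ := IsPGroup.iff_card.1 hq
  have hc : (K.subgroupOf W).index.Coprime (Nat.card (K.subgroupOf W)) := by
    rw [Subgroup.index_eq_card, hb]
    exact Nat.Coprime.pow_left _ ((Nat.Prime.coprime_iff_not_dvd hp.out).2 hK₀)
  have hinv₀ : ∀ g : W, conjIrr (K.subgroupOf W) g (transIrr K W hKW θ) = transIrr K W hKW θ := by
    intro g
    rw [transIrr_conj hKW, hinv]
  obtain ⟨χh, hχh, hext⟩ := Cfsg.Agent.Lib.Coprime.exists_ext_of_coprime (K.subgroupOf W) hc (transIrr K W hKW θ).2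
    (fun g n => congrFun (congrArg Subtype.val (hinv₀ g)) n)
  have hgal := Cfsg.Agent.Lib.Coprime.gallagher_ext (K.subgroupOf W) (transIrr K W hKW θ).2 hχh hext
  obtain ⟨θ₁, h1, h2⟩ := hψ'
  rw [Set.mem_singleton_iff] at h1
  rw [h1] at h2
  obtain ⟨β, ⟨hβ, hβk⟩, hβe⟩ := hgal.surjOn (show (ψ : W → ℂ) ∈ _ from ⟨ψ.2, h2⟩)
  have hβ1 : β 1 = 1 := by
    obtain ⟨β', hβ'⟩ := Cfsg.Agent.Lib.Degree.exists_inflate (K.subgroupOf W) (χ := ⟨β, hβ⟩) hβk
    have hcomm : ∀ a b : W ⧸ K.subgroupOf W, a * b = b * a := by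
      intro a b
      obtain ⟨x, rfl⟩ := QuotientGroup.mk_surjective a
      obtain ⟨y, rfl⟩ := QuotientGroup.mk_surjective b
      have h3 : x * y * x⁻¹ * y⁻¹ ∈ K.subgroupOf W := by
        rw [Subgroup.mem_subgroupOf]
        exact hWab _ x.2 _ y.2
      have h4 := (QuotientGroup.eq_one_iff _).2 h3
      rw [QuotientGroup.mk_mul, QuotientGroup.mk_mul, QuotientGroup.mk_mul, QuotientGroup.mk_inv,
        QuotientGroup.mk_inv] at h4
      have h5 := mul_inv_eq_one.1 h4
      exact mul_inv_eq_iff_eq_mul.1 h5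
    have h6 := charDegree_eq_one_of_comm hcomm β'.2
    have h7 := congrFun (congrArg Subtype.val hβ') 1
    simp only [Cfsg.Agent.Lib.Degree.inflate_apply] at h7
    rw [← h7]
    exact h6
  have hψ1 : (ψ : W → ℂ) 1 = (θ : K → ℂ) 1 := by
    have h8 := congrFun hβe 1
    simp only [Pi.mul_apply] at h8
    rw [← h8, hβ1, one_mul]
    exact hext 1
  have hdeg : charDegree (ψ : W → ℂ) = charDegree (θ : K → ℂ) := by
    apply charDegree_natCast
    rw [hψ1]
    exact map_one_eq_charDegree (IsIrrCharacter.isCharacter θ.2)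
  rw [hdeg]
  intro hd
  exact hK (hd.trans (charDegree_dvd_card θ.2))

/-- Lying over `θ` passes along `K ≤ W ≤ T`. -/
theorem over_of_chain {K W T : Subgroup G} [hKn : K.Normal] [hWn : W.Normal] (hKW : K ≤ W) (hWT : W ≤ T)
    {θ : IrrCharacter K} (hinv : ∀ g : G, conjIrr K g θ = θ) {χ : IrrCharacter G}
    (hχ : classInner (fun n : K => (χ : G → ℂ) n) (θ : K → ℂ) ≠ 0) {ψ : IrrCharacter W}
    (hψ : classInner (fun n : W => (χ : G → ℂ) n) (ψ : W → ℂ) ≠ 0) {τ : IrrCharacter T}
    (hτ : classInner (fun n : W => (τ : T → ℂ) ⟨n, hWT n.2⟩) (ψ : W → ℂ) ≠ 0) :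
    τ ∈ overSet (K.subgroupOf T) ({transIrr K T (hKW.trans hWT) θ} : Set (IrrCharacter (K.subgroupOf T))) := by
  classical
  have hKT : K ≤ T := hKW.trans hWT
  have hinvT : ∀ g : T, conjIrr (K.subgroupOf T) g (transIrr K T hKT θ) = transIrr K T hKT θ := by
    intro g
    rw [transIrr_conj hKT, hinv]
  have hstT := isStable_singleton (K.subgroupOf T) hinvT
  have hst := isStable_singleton K hinv
  by_contra hcon
  have h0 := om_over_of_notMem (K.subgroupOf T) hstT hcon
  have hE : incl T (incl (K.subgroupOf T) (blockElt ({transIrr K T hKT θ} : Set (IrrCharacter (K.subgroupOf T))))) =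
      incl K (blockElt ({θ} : Set (IrrCharacter K))) := by
    have := incl_incl_transIrr (N := K) (T := T) hKT ({θ} : Set (IrrCharacter K))
    rwa [Set.image_singleton] at this
  set eT := incl (K.subgroupOf T) (blockElt ({transIrr K T hKT θ} : Set (IrrCharacter (K.subgroupOf T)))) with heT
  set E := incl K (blockElt ({θ} : Set (IrrCharacter K))) with hEdef
  have hτ' : classInner (fun n : W.subgroupOf T => (τ : T → ℂ) n) (transIrr W T hWT ψ : W.subgroupOf T → ℂ) ≠ 0 := by
    rw [classInner_transIrr hWT]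
    exact hτ
  have hsuppT : incl (W.subgroupOf T) (resAlg (W.subgroupOf T) eT) = eT := by
    apply Block.incl_resAlg_of_support
    intro g hg
    apply coeff_incl_of_notMem
    intro hg2
    exact hg (hKW hg2)
  have hcT : IsCentralElt eT := isCentralElt_incl_blockElt (K.subgroupOf T) hstT
  have hw : IsCentralElt (incl (W.subgroupOf T) (resAlg (W.subgroupOf T) eT)) := by
    rw [hsuppT]
    exact hcT
  have e1 := om_incl_of_constituent (W.subgroupOf T) τ (transIrr W T hWT ψ) hτ' hw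
  rw [hsuppT, h0] at e1
  have hsuppW : incl W (resAlg W E) = E := by
    apply Block.incl_resAlg_of_support
    intro g hg
    apply coeff_incl_of_notMem
    intro hg2
    exact hg (hKW hg2)
  have hcE : IsCentralElt E := isCentralElt_incl_blockElt K hst
  have hw2 : IsCentralElt (incl W (resAlg W E)) := by
    rw [hsuppW]
    exact hcE
  have e2 := om_incl_of_constituent W χ ψ hψ hw2
  have e2' : om (χ : G → ℂ) E = 1 := om_over_of_mem K hst ⟨θ, rfl, hχ⟩
  rw [hsuppW, e2'] at e2
  have e3 : om (transIrr W T hWT ψ : W.subgroupOf T → ℂ) (resAlg (W.subgroupOf T) eT) = om (ψ : W → ℂ) (resAlg W E) := by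
    refine om_mapIrr_of_coeff (Subgroup.subgroupOfEquivOfLe hWT).symm ψ ?_
    intro v
    rw [coeff_resAlg, coeff_resAlg, ← hE]
    exact (coeff_incl_coe T eT _).symm
  rw [e3, ← e2] at e1
  exact zero_ne_one e1

end Aux

section Main

variable {G : Type u} [Group G] [Fintype G] {M : Ideal AlgInt} [hMp : M.IsPrime] {p : ℕ} [hp : Fact p.Prime]

/-- The preimage of `Z(L/K)`. -/
def zeeSub (K L : Subgroup G) [K.Normal] : Subgroup G :=
  ((L.map (QuotientGroup.mk' K)) ⊓ Subgroup.centralizer ((L.map (QuotientGroup.mk' K) : Subgroup (G ⧸ K)) : Set (G ⧸ K))).comap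
    (QuotientGroup.mk' K)

theorem mem_zeeSub {K L : Subgroup G} [K.Normal] {x : G} :
    x ∈ zeeSub K L ↔ QuotientGroup.mk' K x ∈ L.map (QuotientGroup.mk' K) ∧
      ∀ l ∈ L, QuotientGroup.mk' K l * QuotientGroup.mk' K x = QuotientGroup.mk' K x * QuotientGroup.mk' K l := by
  unfold zeeSub
  rw [Subgroup.mem_comap, Subgroup.mem_inf, Subgroup.mem_centralizer_iff]
  constructor
  · rintro ⟨h1, h2⟩
    exact ⟨h1, fun l hl => h2 _ (Subgroup.mem_map_of_mem _ hl)⟩
  · rintro ⟨h1, h2⟩
    refine ⟨h1, ?_⟩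
    rintro _ ⟨l, hl, rfl⟩
    exact h2 l hl

theorem zeeSub_normal {K L : Subgroup G} [hK : K.Normal] [hL : L.Normal] : (zeeSub K L).Normal := by
  unfold zeeSub
  haveI h1 : (L.map (QuotientGroup.mk' K)).Normal := hL.map _ (QuotientGroup.mk'_surjective K)
  exact Subgroup.Normal.comap inferInstance _

theorem case_two (hM : IsPModular p M) (hsolv : IsPSolvable p G)
    (IH : ∀ T : Subgroup G, T ≠ ⊤ → ∀ (τ : IrrCharacter T) (D' : Subgroup T),
      IsDefectGroup p M (blockOf M (τ : T → ℂ)) D' →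
      (charDegree (τ : T → ℂ)).factorization p + (Nat.card (Subgroup.center D')).factorization p ≤
        (Nat.card T).factorization p)
    {θ : IrrCharacter (pPrimeCore p G)} (hinv : ∀ g : G, conjIrr (pPrimeCore p G) g θ = θ) {χ : IrrCharacter G}
    (hχ : classInner (fun n : pPrimeCore p G => (χ : G → ℂ) n) (θ : pPrimeCore p G → ℂ) ≠ 0) {D : Subgroup G}
    (hD : IsDefectGroup p M (blockOf M (χ : G → ℂ)) D) :
    (charDegree (χ : G → ℂ)).factorization p + (Nat.card (Subgroup.center D)).factorization p ≤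
      (Nat.card G).factorization p := by
  classical
  haveI hLn : (pPrimePCore p G).Normal := by
    unfold pPrimePCore
    exact Subgroup.Normal.comap inferInstance _
  have hKL : pPrimeCore p G ≤ pPrimePCore p G := by
    intro x hx
    show QuotientGroup.mk' (pPrimeCore p G) x ∈ pCore p (G ⧸ pPrimeCore p G)
    have h1 : QuotientGroup.mk' (pPrimeCore p G) x = 1 := (QuotientGroup.eq_one_iff x).2 hx
    rw [h1]
    exact Subgroup.one_mem _
  have hK' : ¬ p ∣ Nat.card (pPrimeCore p G) := Cfsg.Agent.Lib.Core.not_dvd_card_pPrimeCore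
  have hLp : ∀ l ∈ pPrimePCore p G, ∃ n : ℕ, l ^ p ^ n ∈ pPrimeCore p G := by
    intro l hl
    exact Cfsg.Agent.Lib.Techniques.exists_pow_mem_pPrimeCore hl
  obtain ⟨B, hB, hmem, hSyl, hDS⟩ := fong_general (pPrimeCore p G) (pPrimePCore p G) hM hKL hK'
    index_subgroupOf_pPrimePCore (fun Q h1 h2 h3 => centralizer_le_pPrimePCore_of_psolvable hsolv h1 h2 h3) hinv
  have hχB : χ ∈ B := (hmem χ).2 hχ
  have hBe : B = blockOf M (χ : G → ℂ) := blockOf_eq_of_mem hB hχB
  rw [← hBe] at hD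
  -- the subgroup `W`
  obtain ⟨W, hWdef⟩ : ∃ W, W = zeeSub (pPrimeCore p G) (pPrimePCore p G) := ⟨_, rfl⟩
  haveI hWn : W.Normal := by
    rw [hWdef]
    exact zeeSub_normal
  have hmk1 : ∀ k ∈ pPrimeCore p G, QuotientGroup.mk' (pPrimeCore p G) k = 1 := fun k hk =>
    (QuotientGroup.eq_one_iff k).2 hk
  have hWL : W ≤ pPrimePCore p G := by
    intro x hx
    rw [hWdef, mem_zeeSub] at hx
    obtain ⟨l, hl, hlx⟩ := hx.1
    have h1 : l⁻¹ * x ∈ pPrimeCore p G := by
      apply (QuotientGroup.eq_one_iff _).1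
      show QuotientGroup.mk' (pPrimeCore p G) (l⁻¹ * x) = 1
      rw [map_mul, map_inv, ← hlx, inv_mul_cancel]
    have h2 : x = l * (l⁻¹ * x) := by group
    rw [h2]
    exact (pPrimePCore p G).mul_mem hl (hKL h1)
  have hKW : pPrimeCore p G ≤ W := by
    intro x hx
    rw [hWdef, mem_zeeSub, hmk1 x hx]
    exact ⟨Subgroup.one_mem _, fun l _ => by simp⟩
  have hWp : ∀ z ∈ W, ∃ n : ℕ, z ^ p ^ n ∈ pPrimeCore p G := fun z hz => hLp z (hWL hz)
  have hWab : ∀ x ∈ W, ∀ y ∈ W, x * y * x⁻¹ * y⁻¹ ∈ pPrimeCore p G := by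
    intro x hx y hy
    have hx' := hx
    rw [hWdef, mem_zeeSub] at hx'
    have h1 := hx'.2 y (hWL hy)
    apply (QuotientGroup.eq_one_iff _).1
    show QuotientGroup.mk' (pPrimeCore p G) (x * y * x⁻¹ * y⁻¹) = 1
    rw [map_mul, map_mul, map_mul, map_inv, map_inv, ← h1]
    group
  obtain ⟨ψ, hψ⟩ := exists_constituent W χ
  set T₁ : Subgroup G := inertia hWn (ψ : W → ℂ) with hT₁
  have hWT₁ : W ≤ T₁ := le_inertia hWn (IsCharacter.isClassFunction (IsIrrCharacter.isCharacter ψ.2))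
  obtain ⟨R₀, hR₀⟩ := Cfsg.Agent.Lib.Techniques.exists_sylowIn (p := p) T₁
  obtain ⟨P, hRP⟩ := hR₀.2.1.exists_le_sylow
  have hPD : IsDefectGroup p M B (P : Subgroup G) := hSyl P
  rw [card_center_of_defect hM hB hPD hD]
  -- the center of `P` lies in `W`
  have hS := (Cfsg.Agent.Lib.Techniques.sylowIn_top_of_sylow P).inf_of_normal (N := pPrimePCore p G) le_top
    (by rw [Subgroup.normalizer_eq_top_iff.2 hLn])
  have hAL : ∀ a : Subgroup.center (P : Subgroup G), ((a : P) : G) ∈ W := by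
    intro a
    have hcomm : ∀ q ∈ (P : Subgroup G), q * ((a : P) : G) = ((a : P) : G) * q := by
      intro q hq
      have := (Subgroup.mem_center_iff.1 a.2) ⟨q, hq⟩
      exact congrArg Subtype.val this
    have haL : ((a : P) : G) ∈ pPrimePCore p G := by
      apply centralizer_le_pPrimePCore_of_psolvable hsolv hS.1 hS.2.1 hS.2.2
      rw [Subgroup.mem_centralizer_iff]
      intro q hq
      exact hcomm q hq.1
    rw [hWdef, mem_zeeSub]
    refine ⟨Subgroup.mem_map_of_mem _ haL, fun l hl => ?_⟩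
    have hsup := le_sup_of_sylowIn hLp hS hl
    obtain ⟨q, hq, k, hk, rfl⟩ := Subgroup.mem_sup_of_normal_right.1 hsup
    rw [map_mul, hmk1 k hk, mul_one, ← map_mul, ← map_mul, hcomm q hq.1]
  have hAcard : ∀ {Y : Type u} [Group Y] (f : Subgroup.center (P : Subgroup G) →* Y), Function.Injective f →
      Nat.card (Subgroup.center (P : Subgroup G)) ∣ Nat.card Y := by
    intro Y _ f hf
    exact Subgroup.card_dvd_of_injective f hf
  by_cases hψinv : ∀ g : G, conjIrr W g ψ = ψ
  · have hdeg := not_dvd_degree_of_abelian hKW hK' hWp hWab hinv hχ hψ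
    have h1 := factorization_add_le_of_invariant hψinv hdeg hψ
    let f : Subgroup.center (P : Subgroup G) →* W :=
      { toFun := fun a => ⟨((a : P) : G), hAL a⟩, map_one' := rfl, map_mul' := fun _ _ => rfl }
    have h2 : Nat.card (Subgroup.center (P : Subgroup G)) ∣ Nat.card W :=
      hAcard f (fun a b h => Subtype.ext (Subtype.ext (congrArg (fun z : W => (z : G)) h)))
    have h3 := (Nat.factorization_le_iff_dvd Nat.card_pos.ne' Nat.card_pos.ne').2 h2 p
    omega
  · have hT₁ne : T₁ ≠ ⊤ := by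
      intro htop
      apply hψinv
      intro g
      have hg : g ∈ T₁ := by rw [htop]; trivial
      exact Subtype.ext ((mem_inertia hWn (ψ : W → ℂ) g).1 hg)
    obtain ⟨τf, hτf, hind, hinner⟩ := clifford_correspondence hWn ψ.2 hT₁ hWT₁ χ.2 hψ
    obtain ⟨τ, rfl⟩ : ∃ τ : IrrCharacter T₁, (τ : T₁ → ℂ) = τf := ⟨⟨τf, hτf⟩, rfl⟩
    have hτψ : classInner (fun n : W => (τ : T₁ → ℂ) ⟨n, hWT₁ n.2⟩) (ψ : W → ℂ) ≠ 0 := by
      rw [hinner]
      exact hψ
    have hτζ := over_of_chain hKW hWT₁ hinv hχ hψ hτψ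
    have hKT₁ : pPrimeCore p G ≤ T₁ := hKW.trans hWT₁
    have hinvT : ∀ g : T₁, conjIrr ((pPrimeCore p G).subgroupOf T₁) g (transIrr _ T₁ hKT₁ θ) = transIrr _ T₁ hKT₁ θ := by
      intro g
      rw [transIrr_conj hKT₁, hinv]
    have hKT : ¬ p ∣ Nat.card ((pPrimeCore p G).subgroupOf T₁) := by
      rwa [Nat.card_congr (Subgroup.subgroupOfEquivOfLe hKT₁).toEquiv]
    have hNp : ∀ z ∈ W.subgroupOf T₁, ∃ n : ℕ, z ^ p ^ n ∈ (pPrimeCore p G).subgroupOf T₁ := by
      intro z hz
      obtain ⟨n, hn⟩ := hWp _ hz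
      refine ⟨n, ?_⟩
      rw [Subgroup.mem_subgroupOf]
      simpa using hn
    have hKN : (pPrimeCore p G).subgroupOf T₁ ≤ W.subgroupOf T₁ := fun x hx => hKW hx
    have hRtop : Cfsg.Agent.Lib.Techniques.SylowIn p (R₀.subgroupOf T₁) ⊤ := by
      refine ⟨le_top, Cfsg.Agent.Lib.Techniques.isPGroup_subgroupOf hR₀.1 hR₀.2.1, ?_⟩
      rw [Subgroup.relIndex_top_right]
      exact hR₀.2.2
    obtain ⟨D', hD', hD'R, hRD'⟩ := exists_defect_sandwich hM hKN hKT hNp hinvT hτζ hRtop
    have hle := IH T₁ hT₁ne τ D' hD'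
    -- `Z(P)` embeds into `Z(D')`
    have hPT : ((P : Subgroup G) ⊓ T₁) = R₀ := by
      apply hR₀.eq_of_le (le_inf hRP hR₀.1) inf_le_right
      exact (P.isPGroup').to_le inf_le_left
    have hmemD : ∀ a : Subgroup.center (P : Subgroup G), (⟨((a : P) : G), hWT₁ (hAL a)⟩ : T₁) ∈ D' := by
      intro a
      apply hRD'
      refine ⟨?_, hAL a⟩
      show ((a : P) : G) ∈ R₀
      rw [← hPT]
      exact ⟨(a : P).2, hWT₁ (hAL a)⟩
    have hcen : ∀ a : Subgroup.center (P : Subgroup G), (⟨⟨((a : P) : G), hWT₁ (hAL a)⟩, hmemD a⟩ : D') ∈ Subgroup.center D' := by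
      intro a
      rw [Subgroup.mem_center_iff]
      intro d
      have hdP : (((d : D') : T₁) : G) ∈ (P : Subgroup G) := hRP (hD'R d.2)
      have := (Subgroup.mem_center_iff.1 a.2) ⟨_, hdP⟩
      apply Subtype.ext
      apply Subtype.ext
      show (((d : D') : T₁) : G) * ((a : P) : G) = ((a : P) : G) * (((d : D') : T₁) : G)
      exact congrArg Subtype.val this
    let f : Subgroup.center (P : Subgroup G) →* Subgroup.center D' :=
      { toFun := fun a => ⟨⟨⟨((a : P) : G), hWT₁ (hAL a)⟩, hmemD a⟩, hcen a⟩, map_one' := rfl, map_mul' := fun _ _ => rfl }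
    have h2 : Nat.card (Subgroup.center (P : Subgroup G)) ∣ Nat.card (Subgroup.center D') :=
      hAcard f (fun a b h => Subtype.ext (Subtype.ext (by
        have := congrArg (fun z : Subgroup.center D' => (((z : D') : T₁) : G)) h
        exact this)))
    have h3 := (Nat.factorization_le_iff_dvd Nat.card_pos.ne' Nat.card_pos.ne').2 h2 p
    have hdeg : charDegree (χ : G → ℂ) = T₁.index * charDegree (τ : T₁ → ℂ) := by
      rw [← hind, charDegree_ind]
    rw [hdeg, ← Subgroup.card_mul_index T₁, Nat.factorization_mul Subgroup.index_ne_zero_of_finite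
      (charDegree_pos_of_irr τ.2).ne', Nat.factorization_mul Nat.card_pos.ne' Subgroup.index_ne_zero_of_finite]
    simp only [Finsupp.add_apply]
    omega

/-- **The height bound for `p`-solvable groups**. -/
theorem height_bound (hM : IsPModular p M) : ∀ (n : ℕ) (G : Type u) [Group G] [Fintype G], Nat.card G = n →
    IsPSolvable p G → ∀ (χ : IrrCharacter G) (D : Subgroup G), IsDefectGroup p M (blockOf M (χ : G → ℂ)) D →
    (charDegree (χ : G → ℂ)).factorization p + (Nat.card (Subgroup.center D)).factorization p ≤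
      (Nat.card G).factorization p := by
  intro n
  induction n using Nat.strong_induction_on with
  | _ n ih =>
    intro G _ _ hn hsolv χ D hD
    classical
    have IH : ∀ T : Subgroup G, T ≠ ⊤ → ∀ (τ : IrrCharacter T) (D' : Subgroup T),
        IsDefectGroup p M (blockOf M (τ : T → ℂ)) D' →
        (charDegree (τ : T → ℂ)).factorization p + (Nat.card (Subgroup.center D')).factorization p ≤
          (Nat.card T).factorization p := by
      intro T hT τ D' hD'
      have hlt : Nat.card T < n := by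
        rw [← hn]
        have h1 := Subgroup.card_mul_index T
        have h2 := Subgroup.one_lt_index_of_ne_top hT
        have h3 : 0 < Nat.card T := Nat.card_pos
        nlinarith
      exact ih _ hlt T rfl (Cfsg.Agent.Lib.PLocal.QuadMat.isPSolvable_subgroup hp.out T hsolv) τ D' hD'
    obtain ⟨θ, hθ⟩ := exists_constituent (pPrimeCore p G) χ
    by_cases hinv : ∀ g : G, conjIrr (pPrimeCore p G) g θ = θ
    · exact case_two hM hsolv IH hinv hθ hD
    · have hK' : ¬ p ∣ Nat.card (pPrimeCore p G) := Cfsg.Agent.Lib.Core.not_dvd_card_pPrimeCore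
      have hN : (pPrimeCore p G).Normal := inferInstance
      set T : Subgroup G := inertia hN (θ : pPrimeCore p G → ℂ) with hTdef
      have hKT : pPrimeCore p G ≤ T := le_inertia hN (IsCharacter.isClassFunction (IsIrrCharacter.isCharacter θ.2))
      have hTm : ∀ g : G, g ∈ T ↔ conjIrr (pPrimeCore p G) g θ = θ := by
        intro g
        rw [hTdef, mem_inertia]
        exact ⟨fun h => Subtype.ext h, fun h => congrArg Subtype.val h⟩
      have hTne : T ≠ ⊤ := by
        intro htop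
        apply hinv
        intro g
        apply (hTm g).1
        rw [htop]
        trivial
      obtain ⟨τ, hdeg, hdef⟩ := fr_step (M := M) hM hK' θ χ hθ hTm hKT
      obtain ⟨D', hD'⟩ := Cfsg.Agent.Lib.CharExtra.exists_isDefectGroup hM (isPBlock_blockOf τ)
      have hle := IH T hTne τ D' hD'
      have hE := hdef D' hD'
      have hc := card_center_of_defect hM (isPBlock_blockOf χ) hE hD
      have hc2 : Nat.card (Subgroup.center (D'.map T.subtype)) = Nat.card (Subgroup.center D') :=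
        (Nat.card_congr (Subgroup.centerCongr (Subgroup.equivMapOfInjective D' T.subtype T.subtype_injective)).toEquiv).symm
      rw [hc, hc2, hdeg, ← Subgroup.card_mul_index T, Nat.factorization_mul Subgroup.index_ne_zero_of_finite
        (charDegree_pos_of_irr τ.2).ne', Nat.factorization_mul Nat.card_pos.ne' Subgroup.index_ne_zero_of_finite]
      simp only [Finsupp.add_apply]
      omega

end Main

end Cfsg.Agent.Lib.BPair
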