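import Cfsg.Agent.Lib.BPair.Inertial
import Cfsg.Agent.Lib.CharExtra.Fong
import Cfsg.Agent.Lib.Core.Basic
import Cfsg.Agent.Lib.Techniques.SylowIn

/-!
# Fong's theorem, local form

For a block over an invariant character of a normal `p'`-subgroup, each `p`-subgroup carries exactly
one block of its centralizer.  This is the block-theoretic Glauberman correspondence.
-/

set_option autoImplicit false
set_option linter.unusedSectionVars false
set_option linter.unusedSimpArgs false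
set_option linter.unusedVariables false

open scoped ComplexConjugate Pointwise
open Cfsg MonoidAlgebra
open Cfsg.Agent.Lib.Block Cfsg.Agent.Lib.Char Cfsg.Agent.Lib.CharExtra

namespace Cfsg.Agent.Lib.BPair

attribute [local instance] subFintype

section Elementary

variable {G : Type*} [Group G] [Finite G] {p : ℕ} [hp : Fact p.Prime]

theorem eq_one_of_mem_coprime {K R : Subgroup G} (hK : ¬ p ∣ Nat.card K) (hR : IsPGroup p R) {x : G}
    (hxK : x ∈ K) (hxR : x ∈ R) : x = 1 := by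
  obtain ⟨k, hk⟩ := hR ⟨x, hxR⟩
  have h1 : x ^ p ^ k = 1 := by
    have := congrArg Subtype.val hk
    simpa using this
  have h2 : x ^ Nat.card K = 1 := by
    have h := pow_card_eq_one' (x := (⟨x, hxK⟩ : K))
    exact congrArg Subtype.val h
  have h3 : orderOf x ∣ p ^ k := orderOf_dvd_of_pow_eq_one h1
  have h4 : orderOf x ∣ Nat.card K := orderOf_dvd_of_pow_eq_one h2
  have hco : (p ^ k).Coprime (Nat.card K) :=
    Nat.Coprime.pow_left _ ((Nat.Prime.coprime_iff_not_dvd hp.out).2 hK)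
  have h5 := Nat.eq_one_of_dvd_coprimes hco h3 h4
  exact orderOf_eq_one_iff.1 h5

/-- **Thompson's `A × B`-lemma** for a single `p'`-element. -/
theorem ab_lemma (P B : Subgroup G) [hPn : P.Normal] (hP : IsPGroup p P) (hB : IsPGroup p B) {y : G}
    (hy : ¬ p ∣ orderOf y) (hyB : ∀ b ∈ B, y * b = b * y)
    (hyC : ∀ c ∈ P, (∀ b ∈ B, c * b = b * c) → y * c = c * y) : ∀ c ∈ P, y * c = c * y := by
  classical
  have hQ : IsPGroup p (B ⊔ P : Subgroup G) := hB.to_sup_of_normal_right hP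
  set Q : Subgroup G := B ⊔ P with hQdef
  set H : Subgroup Q := (Subgroup.centralizer ({y} : Set G)).subgroupOf Q with hHdef
  have hmemH : ∀ w : Q, w ∈ H ↔ y * (w : G) = (w : G) * y := by
    intro w
    rw [hHdef, Subgroup.mem_subgroupOf, Subgroup.mem_centralizer_singleton_iff]
    exact ⟨fun h => by rw [h], fun h => by rw [h]⟩
  have hnil : Group.IsNilpotent Q := IsPGroup.isNilpotent hQ
  have hcomm : ∀ w : Q, (w : G) * y * (w : G)⁻¹ * y⁻¹ ∈ P := by
    intro w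
    obtain ⟨b, hb, c, hc, hbc⟩ := Subgroup.mem_sup_of_normal_right.1 w.2
    rw [← hbc]
    have hb' : Commute b y := (hyB b hb).symm
    have hb2 : b⁻¹ * y⁻¹ = y⁻¹ * b⁻¹ := (hb'.inv_inv).eq
    have e : (b * c) * y * (b * c)⁻¹ * y⁻¹ = b * (c * (y * c⁻¹ * y⁻¹)) * b⁻¹ := by
      calc (b * c) * y * (b * c)⁻¹ * y⁻¹ = b * c * y * c⁻¹ * (b⁻¹ * y⁻¹) := by group
        _ = b * c * y * c⁻¹ * (y⁻¹ * b⁻¹) := by rw [hb2]
        _ = _ := by group
    rw [e]
    exact hPn.conj_mem _ (P.mul_mem hc (hPn.conj_mem _ (P.inv_mem hc) y)) b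
  have hall : H = ⊤ := by
    by_contra hne
    have hlt := Group.normalizerCondition_of_isNilpotent (G := Q) H (lt_top_iff_ne_top.2 hne)
    obtain ⟨w, hw, hwH⟩ := SetLike.exists_of_lt hlt
    apply hwH
    rw [hmemH]
    set c : G := (w : G) * y * (w : G)⁻¹ * y⁻¹ with hc
    have hcP : c ∈ P := hcomm w
    have hcH : ∀ h : Q, h ∈ H → c * (h : G) = (h : G) * c := by
      intro h hh
      have hh' := (hmemH h).1 hh
      have h1 : w⁻¹ * h * w ∈ H := by
        have := (Subgroup.mem_normalizer_iff.1 (Subgroup.inv_mem _ hw) h).1 hh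
        simpa using this
      have h2 := (hmemH _).1 h1
      have h3 : y * (w⁻¹ * h * w : Q).1 = (w⁻¹ * h * w : Q).1 * y := h2
      simp only [Subgroup.coe_mul, Subgroup.coe_inv] at h3
      have hinv : y⁻¹ * (h : G) = (h : G) * y⁻¹ := by
        have := congrArg (fun t => y⁻¹ * t * y⁻¹) hh'
        simpa [mul_assoc] using this.symm
      have e1 : (h : G) * c = (h : G) * (w : G) * y * (w : G)⁻¹ * y⁻¹ := by
        rw [hc]; group
      have e2 : c * (h : G) = (w : G) * y * ((w : G)⁻¹ * (h : G) * (w : G)) * (w : G)⁻¹ * y⁻¹ := by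
        rw [hc]
        calc (w : G) * y * (w : G)⁻¹ * y⁻¹ * (h : G) = (w : G) * y * (w : G)⁻¹ * (y⁻¹ * (h : G)) := by group
          _ = (w : G) * y * (w : G)⁻¹ * ((h : G) * y⁻¹) := by rw [hinv]
          _ = _ := by group
      rw [e1, e2, mul_assoc (w : G) y, h3]
      group
    have hcb : ∀ b ∈ B, c * b = b * c := by
      intro b hb
      have hb' : b ∈ Q := (le_sup_left : B ≤ B ⊔ P) hb
      have := hcH ⟨b, hb'⟩ ((hmemH _).2 (hyB b hb))
      exact this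
    have hyc : y * c = c * y := hyC c hcP hcb
    -- `w y w⁻¹ = c y`, so `c` has order dividing that of `y`
    have hwy : (w : G) * y * (w : G)⁻¹ = c * y := by
      rw [hc]; group
    have hpow : ∀ n : ℕ, (w : G) * y ^ n * (w : G)⁻¹ = c ^ n * y ^ n := by
      intro n
      have : (w : G) * y ^ n * (w : G)⁻¹ = ((w : G) * y * (w : G)⁻¹) ^ n := by
        rw [conj_pow]
      rw [this, hwy, (show Commute c y from hyc.symm).mul_pow]
    have hc1 : c ^ orderOf y = 1 := by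
      have := hpow (orderOf y)
      rw [pow_orderOf_eq_one] at this
      simpa using this.symm
    obtain ⟨k, hk⟩ := hP ⟨c, hcP⟩
    have hc2 : c ^ p ^ k = 1 := by
      have := congrArg Subtype.val hk
      simpa using this
    have h3 : orderOf c ∣ p ^ k := orderOf_dvd_of_pow_eq_one hc2
    have h4 : orderOf c ∣ orderOf y := orderOf_dvd_of_pow_eq_one hc1
    have hco : (p ^ k).Coprime (orderOf y) :=
      Nat.Coprime.pow_left _ ((Nat.Prime.coprime_iff_not_dvd hp.out).2 hy)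
    have hc3 : c = 1 := orderOf_eq_one_iff.1 (Nat.eq_one_of_dvd_coprimes hco h3 h4)
    have h5 : (w : G) * y * (w : G)⁻¹ = y := by
      rw [hwy, hc3, one_mul]
    have h6 : (w : G) * y = y * (w : G) := mul_inv_eq_iff_eq_mul.1 h5
    exact h6.symm
  intro c hc
  have hcQ : c ∈ Q := (le_sup_right : P ≤ B ⊔ P) hc
  exact (hmemH ⟨c, hcQ⟩).1 (by rw [hall]; trivial)

end Elementary

section Top

variable {Γ : Type*} [Group Γ] [Fintype Γ] {M : Ideal AlgInt} [hMp : M.IsPrime] {p : ℕ} [hp : Fact p.Prime]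

theorem mem_cen_of_normalizes {K₀ R₀ : Subgroup Γ} [hKn : K₀.Normal] (hK : ¬ p ∣ Nat.card K₀) (hR : IsPGroup p R₀)
    {k : Γ} (hk : k ∈ K₀) (hn : k ∈ Subgroup.normalizer (R₀ : Set Γ)) : k ∈ Cen R₀ := by
  rw [Subgroup.mem_centralizer_iff]
  intro r hr
  have hr' : r ∈ R₀ := hr
  have h1 : k * r * k⁻¹ ∈ R₀ := (Subgroup.mem_normalizer_iff.1 hn r).1 hr'
  have h2 : k * r * k⁻¹ * r⁻¹ ∈ R₀ := R₀.mul_mem h1 (R₀.inv_mem hr')
  have h3 : k * r * k⁻¹ * r⁻¹ ∈ K₀ := by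
    have : k * r * k⁻¹ * r⁻¹ = k * (r * k⁻¹ * r⁻¹) := by group
    rw [this]
    exact K₀.mul_mem hk (hKn.conj_mem _ (K₀.inv_mem hk) r)
  have h4 := eq_one_of_mem_coprime hK hR h3 h2
  have h5 : k * r * k⁻¹ = r := mul_inv_eq_one.1 h4
  exact (mul_inv_eq_iff_eq_mul.1 h5).symm

theorem mem_sup_cen_of_normalizer {K₀ R₀ : Subgroup Γ} [hKn : K₀.Normal] (hK : ¬ p ∣ Nat.card K₀)
    (hR : IsPGroup p R₀) (hsup : K₀ ⊔ R₀ = ⊤) {x : Γ} (hx : x ∈ Subgroup.normalizer (R₀ : Set Γ)) :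
    x ∈ R₀ ⊔ Cen R₀ := by
  have hx' : x ∈ K₀ ⊔ R₀ := by rw [hsup]; trivial
  obtain ⟨k, hk, r, hr, rfl⟩ := Subgroup.mem_sup_of_normal_left.1 hx'
  have hrn : r ∈ Subgroup.normalizer (R₀ : Set Γ) := Subgroup.le_normalizer hr
  have hkn : k ∈ Subgroup.normalizer (R₀ : Set Γ) := by
    have := (Subgroup.normalizer (R₀ : Set Γ)).mul_mem hx ((Subgroup.normalizer (R₀ : Set Γ)).inv_mem hrn)
    simpa using this
  exact (R₀ ⊔ Cen R₀).mul_mem (Subgroup.mem_sup_right (mem_cen_of_normalizes hK hR hk hkn))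
    (Subgroup.mem_sup_left hr)

/-- Pairs on a Sylow complement of a normal `p'`-subgroup are unique. -/
theorem pair_unique_of_complement (hM : IsPModular p M) {K₀ R₀ : Subgroup Γ} [hKn : K₀.Normal]
    (hK : ¬ p ∣ Nat.card K₀) (hsup : K₀ ⊔ R₀ = ⊤)
    {B₀ : Set (IrrCharacter Γ)} (hD : IsDefectGroup p M B₀ R₀)
    {f₁ f₂ : Set (IrrCharacter (Cen R₀))} (h₁ : IsBrauerPairOf p M B₀ R₀ f₁) (h₂ : IsBrauerPairOf p M B₀ R₀ f₂) :
    f₁ = f₂ := by
  obtain ⟨⟨hR, hf₁⟩, -, -⟩ := isBrauerPairOf_iff.1 h₁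
  obtain ⟨x, hx⟩ := exists_conj_of_max hM (isMaximal_of_defect hM hD h₁) (isMaximal_of_defect hM hD h₂)
  have hc : cj x R₀ = R₀ := (congrArg Sigma.fst hx).symm
  have hxn := mem_normalizer_of_cj_eq hc
  have hs := stabilizes_of_mem_sup_cen (mem_sup_cen_of_normalizer hK hR hsup hxn) hf₁
  have h3 := conjIdx_eq_of_stabilizes hf₁ hxn hs
  rw [h3] at hx
  exact (eq_of_heq (Sigma.mk.inj hx).2).symm

/-- Elements of `C(R₀)` act on `C_{K₀}(R₀)` by inner automorphisms. -/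
theorem conjIrr_eq_of_complement {K₀ R₀ : Subgroup Γ} [hKn : K₀.Normal]
    (hK : ¬ p ∣ Nat.card K₀) (hR : IsPGroup p R₀) (hsup : K₀ ⊔ R₀ = ⊤) (y : Cen R₀)
    (ζ : IrrCharacter (K₀.subgroupOf (Cen R₀))) : conjIrr (K₀.subgroupOf (Cen R₀)) y ζ = ζ := by
  have hy' : (y : Γ) ∈ K₀ ⊔ R₀ := by rw [hsup]; trivial
  obtain ⟨k, hk, r, hr, hkr⟩ := Subgroup.mem_sup_of_normal_left.1 hy'
  have hrn : r ∈ Subgroup.normalizer (R₀ : Set Γ) := Subgroup.le_normalizer hr
  have hyn : (y : Γ) ∈ Subgroup.normalizer (R₀ : Set Γ) := cen_le_normalizer R₀ y.2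
  have hkn : k ∈ Subgroup.normalizer (R₀ : Set Γ) := by
    have := (Subgroup.normalizer (R₀ : Set Γ)).mul_mem hyn ((Subgroup.normalizer (R₀ : Set Γ)).inv_mem hrn)
    rw [← hkr] at this
    simpa using this
  have hkc : k ∈ Cen R₀ := mem_cen_of_normalizes hK hR hk hkn
  apply Subtype.ext
  funext n
  show (ζ : K₀.subgroupOf (Cen R₀) → ℂ) ⟨y * n * y⁻¹, _⟩ = _
  have hcl := IsCharacter.isClassFunction (IsIrrCharacter.isCharacter ζ.2)
  have hkK : (⟨k, hkc⟩ : Cen R₀) ∈ K₀.subgroupOf (Cen R₀) := hk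
  have e := hcl n ⟨⟨k, hkc⟩, hkK⟩
  rw [← e]
  refine congrArg _ (Subtype.ext (Subtype.ext ?_))
  show (y : Γ) * (n : Cen R₀).1 * (y : Γ)⁻¹ = k * (n : Cen R₀).1 * k⁻¹
  rw [← hkr]
  have hcomm : r * ((n : Cen R₀) : Γ) = ((n : Cen R₀) : Γ) * r := by
    have := Subgroup.mem_centralizer_iff.1 (n : Cen R₀).2 r hr
    exact this
  calc k * r * ((n : Cen R₀) : Γ) * (k * r)⁻¹ = k * (r * ((n : Cen R₀) : Γ)) * r⁻¹ * k⁻¹ := by group
    _ = _ := by rw [hcomm]; group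

/-- The truncated idempotent at `R₀` involves a single character of `C_{K₀}(R₀)`. -/
theorem zeta_unique_top (hM : IsPModular p M) {K₀ R₀ : Subgroup Γ} [hKn : K₀.Normal]
    (hK : ¬ p ∣ Nat.card K₀) (hR : IsPGroup p R₀) (hsup : K₀ ⊔ R₀ = ⊤) {θ₀ : IrrCharacter K₀}
    (hinv : ∀ g : Γ, conjIrr K₀ g θ₀ = θ₀) {ζ₁ ζ₂ : IrrCharacter (K₀.subgroupOf (Cen R₀))}
    (h₁ : ¬ MemLocalIdeal M (om (ζ₁ : K₀.subgroupOf (Cen R₀) → ℂ)
      (resAlg (K₀.subgroupOf (Cen R₀)) (resAlg (Cen R₀) (blockElt (overSet K₀ ({θ₀} : Set (IrrCharacter K₀))))))))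
    (h₂ : ¬ MemLocalIdeal M (om (ζ₂ : K₀.subgroupOf (Cen R₀) → ℂ)
      (resAlg (K₀.subgroupOf (Cen R₀)) (resAlg (Cen R₀) (blockElt (overSet K₀ ({θ₀} : Set (IrrCharacter K₀))))))) ) :
    ζ₁ = ζ₂ := by
  classical
  -- the block of `Γ`
  have hidx : ∃ k : ℕ, (K₀.subgroupOf (⊤ : Subgroup Γ)).index = p ^ k := by
    have h1 : (K₀.subgroupOf (⊤ : Subgroup Γ)).index = K₀.relIndex R₀ := by
      have : (K₀.subgroupOf (⊤ : Subgroup Γ)).index = K₀.relIndex (K₀ ⊔ R₀) := by rw [hsup]; rfl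
      rw [this, Subgroup.relIndex_sup_left]
    obtain ⟨a, ha⟩ := IsPGroup.iff_card.1 hR
    have h2 : K₀.relIndex R₀ ∣ p ^ a := by
      rw [← ha]
      exact Subgroup.relIndex_dvd_card _ _
    obtain ⟨b, -, hb⟩ := (Nat.dvd_prime_pow hp.out).1 h2
    exact ⟨b, by rw [h1, hb]⟩
  obtain ⟨B₀, hB₀, hmem, hSyl, -⟩ := fong_general (G := Γ) K₀ ⊤ hM le_top hK hidx (fun _ _ _ _ => le_top) hinv
  have hBo : B₀ = overSet K₀ ({θ₀} : Set (IrrCharacter K₀)) := by
    ext χ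
    rw [hmem]
    constructor
    · intro h
      exact ⟨θ₀, rfl, h⟩
    · rintro ⟨θ, hθ, h⟩
      rw [Set.mem_singleton_iff] at hθ
      rwa [hθ] at h
  rw [← hBo] at h₁ h₂
  have hsyl : ¬ p ∣ R₀.index := by
    have h0 : K₀.index ∣ Nat.card R₀ := by
      have h1 : K₀.index = K₀.relIndex R₀ := by
        have : K₀.index = K₀.relIndex (K₀ ⊔ R₀) := by
          rw [hsup]
          exact (Subgroup.relIndex_top_right _).symm
        rw [this, Subgroup.relIndex_sup_left]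
      rw [h1]
      exact Subgroup.relIndex_dvd_card _ _
    have h2 : Nat.card K₀ * K₀.index = Nat.card Γ := Subgroup.card_mul_index K₀
    have h3 : Nat.card R₀ * R₀.index = Nat.card Γ := Subgroup.card_mul_index R₀
    have h4 : R₀.index ∣ Nat.card K₀ := by
      have h5 : Nat.card R₀ * R₀.index ∣ Nat.card R₀ * Nat.card K₀ := by
        rw [h3, ← h2, mul_comm (Nat.card R₀)]
        exact mul_dvd_mul_left _ h0
      exact Nat.dvd_of_mul_dvd_mul_left Nat.card_pos h5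
    intro hd
    exact hK (hd.trans h4)
  have hD : IsDefectGroup p M B₀ R₀ := hSyl (hR.toSylow hsyl)
  have hbc := isCentralElt_blockElt B₀
  have hbl : LocalCoeff M (blockElt B₀) := localCoeff_blockElt (isBlockUnion_of_isPBlock hB₀)
  have hK₁c : ¬ p ∣ Nat.card (K₀.subgroupOf (Cen R₀)) := by
    intro hd
    apply hK
    refine hd.trans ?_
    let f : (K₀.subgroupOf (Cen R₀)) →* K₀ := { toFun := fun x => ⟨x.1.1, x.2⟩, map_one' := rfl, map_mul' := fun _ _ => rfl }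
    exact Subgroup.card_dvd_of_injective f
      (fun a b h => Subtype.ext (Subtype.ext (congrArg (fun z : K₀ => (z : Γ)) h)))
  have key : ∀ ζ : IrrCharacter (K₀.subgroupOf (Cen R₀)), ¬ MemLocalIdeal M (om (ζ : (K₀.subgroupOf (Cen R₀)) → ℂ) (resAlg (K₀.subgroupOf (Cen R₀)) (resAlg (Cen R₀) (blockElt B₀)))) →
      ∀ χ : IrrCharacter (Cen R₀), classInner (fun n : (K₀.subgroupOf (Cen R₀)) => (χ : Cen R₀ → ℂ) n) (ζ : (K₀.subgroupOf (Cen R₀)) → ℂ) ≠ 0 →
        IsBrauerPairOf p M B₀ R₀ (blockOf M (χ : Cen R₀ → ℂ)) := by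
    intro ζ hζ χ hχ
    have hsupp : incl (K₀.subgroupOf (Cen R₀)) (resAlg (K₀.subgroupOf (Cen R₀)) (resAlg (Cen R₀) (blockElt B₀))) = resAlg (Cen R₀) (blockElt B₀) := by
      apply Block.incl_resAlg_of_support
      intro g hg
      rw [coeff_resAlg, hBo, ← incl_blockElt_eq_over K₀ (isStable_singleton K₀ hinv)]
      exact coeff_incl_of_notMem K₀ _ hg
    have hce : IsCentralElt (incl (K₀.subgroupOf (Cen R₀)) (resAlg (K₀.subgroupOf (Cen R₀)) (resAlg (Cen R₀) (blockElt B₀)))) := by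
      rw [hsupp]
      exact isCentralElt_resAlg_of_isInvBy (hbc.isInvBy _)
    have h1 := om_incl_of_constituent (K₀.subgroupOf (Cen R₀)) χ ζ hχ hce
    rw [hsupp] at h1
    rw [← h1] at hζ
    have h2 := (om_idem_cases hM hR χ (hbc.isInvBy R₀) (hbc.isInvBy _) hbl (blockElt_mul_self _)).resolve_left hζ
    have hg : IsPBlock M (blockOf M (χ : Cen R₀ → ℂ)) := isPBlock_blockOf χ
    exact isBrauerPairOf_iff.2 ⟨⟨hR, hg⟩, hB₀, fun η hη =>
      om_block_congr hg hη (mem_blockOf_self χ) (hbc.isInvBy _) hbl h2⟩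
  obtain ⟨χ₁, hχ₁⟩ := exists_irr_over (K₀.subgroupOf (Cen R₀)) ζ₁
  obtain ⟨χ₂, hχ₂⟩ := exists_irr_over (K₀.subgroupOf (Cen R₀)) ζ₂
  have e := pair_unique_of_complement hM hK hsup hD (key ζ₁ h₁ χ₁ hχ₁) (key ζ₂ h₂ χ₂ hχ₂)
  have hsame : SameBlock M (χ₁ : Cen R₀ → ℂ) (χ₂ : Cen R₀ → ℂ) := by
    have : χ₂ ∈ blockOf M (χ₁ : Cen R₀ → ℂ) := by
      rw [e]
      exact mem_blockOf_self χ₂
    exact this
  have hst : IsStable (K₀.subgroupOf (Cen R₀)) ({ζ₁} : Set (IrrCharacter (K₀.subgroupOf (Cen R₀)))) := by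
    intro g ψ hψ
    rw [Set.mem_singleton_iff] at hψ ⊢
    rw [hψ]
    exact conjIrr_eq_of_complement hK hR hsup g ζ₁
  have := constituent_mem_of_sameBlock (K₀.subgroupOf (Cen R₀)) hst (isBlockUnion_singleton (K₀.subgroupOf (Cen R₀)) hM hK₁c ζ₁) hsame
    ⟨ζ₁, rfl, hχ₁⟩ hχ₂
  exact (Set.mem_singleton_iff.1 this).symm

end Top

section Transport

variable {H K : Type*} [Group H] [Group K] [Fintype H] [Fintype K]

theorem om_mapIrr_of_coeff (φ : H ≃* K) (ζ : IrrCharacter H) {w : MonoidAlgebra ℂ H} {z : MonoidAlgebra ℂ K}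
    (h : ∀ v : H, z.coeff (φ v) = w.coeff v) : om (mapIrr φ ζ : K → ℂ) z = om (ζ : H → ℂ) w := by
  classical
  unfold om tr
  have h1 : (mapIrr φ ζ : K → ℂ) 1 = (ζ : H → ℂ) 1 := by
    simp [mapIrr]
  rw [h1]
  congr 1
  rw [← Equiv.sum_comp φ.toEquiv]
  refine Finset.sum_congr rfl fun v _ => ?_
  have e : φ.toEquiv v = φ v := rfl
  rw [e, h, mapIrr_apply]

end Transport

section GLevel

variable {G : Type*} [Group G] [Fintype G] {M : Ideal AlgInt} [hMp : M.IsPrime] {p : ℕ} [hp : Fact p.Prime]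

/-- `C_{K ⊓ (K R)}` identified inside `C(R)`. -/
noncomputable def cenKIso (K R : Subgroup G) :
    ((K.subgroupOf (K ⊔ R)).subgroupOf (Cen (R.subgroupOf (K ⊔ R)))) ≃* (K.subgroupOf (Cen R)) where
  toFun k := ⟨⟨k.1.1.1, by
      rw [Subgroup.mem_centralizer_iff]
      intro r hr
      have hr' : (⟨r, (le_sup_right : R ≤ K ⊔ R) hr⟩ : (K ⊔ R : Subgroup G)) ∈ R.subgroupOf (K ⊔ R) := hr
      exact congrArg Subtype.val (Subgroup.mem_centralizer_iff.1 k.1.2 _ hr')⟩, k.2⟩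
  invFun z := ⟨⟨⟨z.1.1, (le_sup_left : K ≤ K ⊔ R) z.2⟩, by
      rw [Subgroup.mem_centralizer_iff]
      intro r hr
      apply Subtype.ext
      exact Subgroup.mem_centralizer_iff.1 z.1.2 r.1 hr⟩, z.2⟩
  left_inv k := rfl
  right_inv z := rfl
  map_mul' a b := rfl

theorem zeta_unique (hM : IsPModular p M) (K : Subgroup G) [hKn : K.Normal] (hK : ¬ p ∣ Nat.card K)
    {θ : IrrCharacter K} (hinv : ∀ g : G, conjIrr K g θ = θ) {R : Subgroup G} (hR : IsPGroup p R)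
    {ζ₁ ζ₂ : IrrCharacter (K.subgroupOf (Cen R))}
    (h₁ : ¬ MemLocalIdeal M (om (ζ₁ : K.subgroupOf (Cen R) → ℂ)
      (resAlg (K.subgroupOf (Cen R)) (resAlg (Cen R) (blockElt (overSet K ({θ} : Set (IrrCharacter K))))))))
    (h₂ : ¬ MemLocalIdeal M (om (ζ₂ : K.subgroupOf (Cen R) → ℂ)
      (resAlg (K.subgroupOf (Cen R)) (resAlg (Cen R) (blockElt (overSet K ({θ} : Set (IrrCharacter K))))))) ) :
    ζ₁ = ζ₂ := by
  classical
  have hKΓ : K ≤ K ⊔ R := le_sup_left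
  have hRΓ : R ≤ K ⊔ R := le_sup_right
  have hK₀ : ¬ p ∣ Nat.card (K.subgroupOf (K ⊔ R)) := by
    rwa [Nat.card_congr (Subgroup.subgroupOfEquivOfLe hKΓ).toEquiv]
  have hR₀ : IsPGroup p (R.subgroupOf (K ⊔ R)) := Cfsg.Agent.Lib.Techniques.isPGroup_subgroupOf hRΓ hR
  have hsup : K.subgroupOf (K ⊔ R) ⊔ R.subgroupOf (K ⊔ R) = ⊤ := by
    rw [← Subgroup.subgroupOf_sup hKΓ hRΓ]
    exact Subgroup.subgroupOf_self _
  have hinv₀ : ∀ g : (K ⊔ R : Subgroup G), conjIrr (K.subgroupOf (K ⊔ R)) g (transIrr K (K ⊔ R) hKΓ θ) =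
      transIrr K (K ⊔ R) hKΓ θ := by
    intro g
    rw [transIrr_conj hKΓ, hinv]
  have hE : incl (K ⊔ R) (blockElt (overSet (K.subgroupOf (K ⊔ R))
      ({transIrr K (K ⊔ R) hKΓ θ} : Set (IrrCharacter (K.subgroupOf (K ⊔ R)))))) =
      blockElt (overSet K ({θ} : Set (IrrCharacter K))) := by
    rw [← incl_blockElt_eq_over (K.subgroupOf (K ⊔ R)) (isStable_singleton _ hinv₀),
      ← incl_blockElt_eq_over K (isStable_singleton K hinv)]
    have := incl_incl_transIrr (N := K) (T := K ⊔ R) hKΓ ({θ} : Set (IrrCharacter K))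
    rwa [Set.image_singleton] at this
  have hcoeff : ∀ v : K.subgroupOf (Cen R),
      (resAlg ((K.subgroupOf (K ⊔ R)).subgroupOf (Cen (R.subgroupOf (K ⊔ R)))) (resAlg (Cen (R.subgroupOf (K ⊔ R)))
        (blockElt (overSet (K.subgroupOf (K ⊔ R)) ({transIrr K (K ⊔ R) hKΓ θ} : Set (IrrCharacter (K.subgroupOf (K ⊔ R)))))))).coeff
        ((cenKIso K R).symm v) =
      (resAlg (K.subgroupOf (Cen R)) (resAlg (Cen R) (blockElt (overSet K ({θ} : Set (IrrCharacter K)))))).coeff v := by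
    intro v
    rw [coeff_resAlg, coeff_resAlg, coeff_resAlg, coeff_resAlg, ← hE]
    exact (coeff_incl_coe (K ⊔ R) _ _).symm
  have e₁ := om_mapIrr_of_coeff (cenKIso K R).symm ζ₁ hcoeff
  have e₂ := om_mapIrr_of_coeff (cenKIso K R).symm ζ₂ hcoeff
  rw [← e₁] at h₁
  rw [← e₂] at h₂
  have := zeta_unique_top hM hK₀ hR₀ hsup hinv₀ h₁ h₂
  have h3 := congrArg (mapIrr (cenKIso K R).symm.symm) this
  rwa [mapIrr_symm_mapIrr, mapIrr_symm_mapIrr] at h3

end GLevel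

section Final

variable {G : Type*} [Group G] [Fintype G] {M : Ideal AlgInt} [hMp : M.IsPrime] {p : ℕ} [hp : Fact p.Prime]

theorem exists_fixed_in_coset {K R : Subgroup G} [hKn : K.Normal] (hK : ¬ p ∣ Nat.card K) (hR : IsPGroup p R) (l : G)
    (h : ∀ r ∈ R, l⁻¹ * (r * l * r⁻¹) ∈ K) : ∃ k ∈ K, ∀ r ∈ R, r * (l * k) = (l * k) * r := by
  classical
  let Ω : Type _ := {z : G // l⁻¹ * z ∈ K}
  have hΩ : ∀ (r : R) (z : Ω), l⁻¹ * ((r : G) * z.1 * (r : G)⁻¹) ∈ K := by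
    intro r z
    have e : l⁻¹ * ((r : G) * z.1 * (r : G)⁻¹) =
        (l⁻¹ * ((r : G) * l * (r : G)⁻¹)) * ((r : G) * (l⁻¹ * z.1) * (r : G)⁻¹) := by group
    rw [e]
    exact K.mul_mem (h r r.2) (hKn.conj_mem _ z.2 r)
  letI act : MulAction R Ω :=
    { smul := fun r z => ⟨(r : G) * z.1 * (r : G)⁻¹, hΩ r z⟩
      one_smul := fun z => Subtype.ext (by
        change ((1 : R) : G) * z.1 * ((1 : R) : G)⁻¹ = z.1
        simp)
      mul_smul := fun a b z => Subtype.ext (by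
        change ((a * b : R) : G) * z.1 * ((a * b : R) : G)⁻¹ = (a : G) * ((b : G) * z.1 * (b : G)⁻¹) * (a : G)⁻¹
        simp [mul_assoc]) }
  have hcard : Nat.card Ω = Nat.card K := Nat.card_congr
    { toFun := fun z => ⟨l⁻¹ * z.1, z.2⟩
      invFun := fun k => ⟨l * k.1, by simp⟩
      left_inv := fun z => Subtype.ext (by simp)
      right_inv := fun k => Subtype.ext (by simp) }
  obtain ⟨z, hz⟩ := hR.nonempty_fixed_point_of_prime_not_dvd_card Ω (by rwa [hcard])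
  refine ⟨l⁻¹ * z.1, z.2, fun r hr => ?_⟩
  rw [mul_inv_cancel_left]
  have e : (r : G) * z.1 * (r : G)⁻¹ = z.1 := congrArg Subtype.val (hz ⟨r, hr⟩)
  exact mul_inv_eq_iff_eq_mul.1 e

theorem trivial_on_quot {K L R : Subgroup G} [hKn : K.Normal] [hLn : L.Normal] (hKL : K ≤ L) (hK : ¬ p ∣ Nat.card K)
    (hLp : ∀ l ∈ L, ∃ n : ℕ, l ^ p ^ n ∈ K) (hR : IsPGroup p R) {y : G} (hyR : y ∈ Cen R)
    (hy : ¬ p ∣ orderOf y) (hz : ∀ z ∈ L, z ∈ Cen R → y * z * y⁻¹ * z⁻¹ ∈ K) :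
    ∀ l ∈ L, y * l * y⁻¹ * l⁻¹ ∈ K := by
  classical
  have hmk : ∀ a b : G, QuotientGroup.mk' K a * QuotientGroup.mk' K b = QuotientGroup.mk' K b * QuotientGroup.mk' K a →
      a * b * a⁻¹ * b⁻¹ ∈ K := by
    intro a b hab
    apply (QuotientGroup.eq_one_iff _).1
    show QuotientGroup.mk' K (a * b * a⁻¹ * b⁻¹) = 1
    rw [map_mul, map_mul, map_mul, map_inv, map_inv, hab]
    group
  have hmk' : ∀ a b : G, a * b * a⁻¹ * b⁻¹ ∈ K →
      QuotientGroup.mk' K a * QuotientGroup.mk' K b = QuotientGroup.mk' K b * QuotientGroup.mk' K a := by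
    intro a b hab
    have h1 : QuotientGroup.mk' K (a * b * a⁻¹ * b⁻¹) = 1 := (QuotientGroup.eq_one_iff _).2 hab
    rw [map_mul, map_mul, map_mul, map_inv, map_inv] at h1
    have h2 := mul_inv_eq_one.1 h1
    exact mul_inv_eq_iff_eq_mul.1 h2
  have hP : IsPGroup p (L.map (QuotientGroup.mk' K)) := by
    rintro ⟨_, l, hl, rfl⟩
    obtain ⟨n, hn⟩ := hLp l hl
    refine ⟨n, Subtype.ext ?_⟩
    show (QuotientGroup.mk' K l) ^ p ^ n = 1
    rw [← map_pow]
    exact (QuotientGroup.eq_one_iff _).2 hn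
  have hB : IsPGroup p (R.map (QuotientGroup.mk' K)) := hR.map _
  haveI hPn : (L.map (QuotientGroup.mk' K)).Normal := hLn.map _ (QuotientGroup.mk'_surjective K)
  have hab := ab_lemma (L.map (QuotientGroup.mk' K)) (R.map (QuotientGroup.mk' K)) hP hB
    (y := QuotientGroup.mk' K y) (fun hd => hy (hd.trans (orderOf_map_dvd _ _)))
    (by
      rintro _ ⟨r, hr, rfl⟩
      rw [← map_mul, ← map_mul, (Subgroup.mem_centralizer_iff.1 hyR r hr)])
    (by
      rintro _ ⟨l, hl, rfl⟩ hc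
      have h1 : ∀ r ∈ R, l⁻¹ * (r * l * r⁻¹) ∈ K := by
        intro r hr
        have h2 := hc _ (Subgroup.mem_map_of_mem _ hr)
        apply (QuotientGroup.eq_one_iff _).1
        show QuotientGroup.mk' K (l⁻¹ * (r * l * r⁻¹)) = 1
        rw [map_mul, map_mul, map_mul, map_inv, map_inv, ← h2]
        group
      obtain ⟨k, hk, hrk⟩ := exists_fixed_in_coset hK hR l h1
      have h3 := hz (l * k) (L.mul_mem hl (hKL hk)) (Subgroup.mem_centralizer_iff.2 hrk)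
      have h4 := hmk' _ _ h3
      have h5 : QuotientGroup.mk' K (l * k) = QuotientGroup.mk' K l := by
        have hk1 : QuotientGroup.mk' K k = 1 := (QuotientGroup.eq_one_iff k).2 hk
        rw [map_mul, hk1, mul_one]
      rwa [h5] at h4)
  intro l hl
  exact hmk _ _ (hab _ (Subgroup.mem_map_of_mem _ hl))

theorem le_sup_of_sylowIn {N H T : Subgroup G} [hN : N.Normal] (hq : ∀ z ∈ H, ∃ n : ℕ, z ^ p ^ n ∈ N)
    (hT : Cfsg.Agent.Lib.Techniques.SylowIn p T H) : H ≤ T ⊔ N := by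
  have hq' : IsPGroup p (H ⧸ N.subgroupOf H) := by
    intro q
    obtain ⟨y, rfl⟩ := QuotientGroup.mk_surjective q
    obtain ⟨k, hk⟩ := hq y y.2
    refine ⟨k, ?_⟩
    rw [← QuotientGroup.mk_pow, QuotientGroup.eq_one_iff, Subgroup.mem_subgroupOf]
    simpa using hk
  have h1 := Cfsg.Agent.Lib.Techniques.sylow_sup_of_quotient _ hq' hT.toSylow
  intro x hx
  have h2 : (⟨x, hx⟩ : H) ∈ (hT.toSylow : Subgroup H) ⊔ N.subgroupOf H := by
    rw [h1]; trivial
  have h3 := Subgroup.mem_map_of_mem H.subtype h2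
  rw [Subgroup.map_sup] at h3
  have h4 : Subgroup.map H.subtype (hT.toSylow : Subgroup H) ⊔ Subgroup.map H.subtype (N.subgroupOf H) ≤ T ⊔ N := by
    refine sup_le_sup ?_ ?_
    · rintro _ ⟨y, hy, rfl⟩
      exact hy
    · rintro _ ⟨y, hy, rfl⟩
      exact hy
  exact h4 h3

/-- A `p'`-element acting trivially on `L/K` lies in `K`, when `C_G(Q) ≤ L`. -/
theorem mem_of_trivial_action {K L Q : Subgroup G} [hKn : K.Normal] [hLn : L.Normal] (hKL : K ≤ L)
    (hK : ¬ p ∣ Nat.card K) (hLp : ∀ l ∈ L, ∃ n : ℕ, l ^ p ^ n ∈ K)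
    (hQ : Cfsg.Agent.Lib.Techniques.SylowIn p Q L) (hCQ : Cen Q ≤ L) {y : G} (hy : ¬ p ∣ orderOf y)
    (ht : ∀ l ∈ L, y * l * y⁻¹ * l⁻¹ ∈ K) : y ∈ K := by
  classical
  have hconj : Cfsg.Agent.Lib.Techniques.conjS y L = L := by
    rw [← Cfsg.Agent.Lib.Techniques.mem_normalizer_iff_conjS]
    rw [Subgroup.normalizer_eq_top_iff.2 hLn]
    trivial
  have h1 := hQ.conj y
  rw [hconj] at h1
  obtain ⟨h, hh, he⟩ := hQ.exists_conj_eq h1
  have hsup : L ≤ K ⊔ Q := by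
    rw [sup_comm]
    exact le_sup_of_sylowIn hLp hQ
  obtain ⟨k, hk, q, hq, rfl⟩ := Subgroup.mem_sup_of_normal_left.1 (hsup hh)
  have hQconj : ∀ q' ∈ Q, y * q' * y⁻¹ ∈ Cfsg.Agent.Lib.Techniques.conjS (k * q) Q := by
    intro q' hq'
    rw [he]
    exact ⟨q', hq', rfl⟩
  set w := k⁻¹ * y with hw
  have hwC : w ∈ Cen Q := by
    rw [Subgroup.mem_centralizer_iff]
    intro q' hq'
    have hq'' : q' ∈ Q := hq'
    obtain ⟨q₁, hq₁, he₁⟩ := hQconj q' hq''
    have he₂ : (k * q) * q₁ * (k * q)⁻¹ = y * q' * y⁻¹ := he₁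
    have hmemQ : w * q' * w⁻¹ ∈ Q := by
      have : w * q' * w⁻¹ = q * q₁ * q⁻¹ := by
        rw [hw]
        calc k⁻¹ * y * q' * (k⁻¹ * y)⁻¹ = k⁻¹ * (y * q' * y⁻¹) * k := by group
          _ = k⁻¹ * ((k * q) * q₁ * (k * q)⁻¹) * k := by rw [he₂]
          _ = _ := by group
      rw [this]
      exact Q.mul_mem (Q.mul_mem hq hq₁) (Q.inv_mem hq)
    have hmemK : w * q' * w⁻¹ * q'⁻¹ ∈ K := by
      have h3 := ht q' (hQ.1 hq'')
      have : w * q' * w⁻¹ * q'⁻¹ = k⁻¹ * ((y * q' * y⁻¹) * k * (y * q' * y⁻¹)⁻¹) * (y * q' * y⁻¹ * q'⁻¹) := by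
        rw [hw]
        group
      rw [this]
      exact K.mul_mem (K.mul_mem (K.inv_mem hk) (hKn.conj_mem _ hk _)) h3
    have h4 := eq_one_of_mem_coprime hK hQ.2.1 hmemK (Q.mul_mem hmemQ (Q.inv_mem hq''))
    have h5 : w * q' * w⁻¹ = q' := mul_inv_eq_one.1 h4
    exact (mul_inv_eq_iff_eq_mul.1 h5).symm
  have hyL : y ∈ L := by
    have : y = k * w := by rw [hw]; group
    rw [this]
    exact L.mul_mem (hKL hk) (hCQ hwC)
  obtain ⟨n, hn⟩ := hLp y hyL
  obtain ⟨m, hm⟩ := exists_pow_eq_self_of_coprime (x := y) (n := p ^ n)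
    (Nat.Coprime.pow_left _ ((Nat.Prime.coprime_iff_not_dvd hp.out).2 hy))
  rw [← hm]
  exact K.pow_mem hn m

end Final

section Main

variable {G : Type*} [Group G] [Fintype G] {M : Ideal AlgInt} [hMp : M.IsPrime] {p : ℕ} [hp : Fact p.Prime]

theorem index_subgroupOf_comap_pCore {X : Type*} [Group X] [Finite X] (N : Subgroup X) [hN : N.Normal] :
    ∃ k : ℕ, (N.subgroupOf ((pCore p (X ⧸ N)).comap (QuotientGroup.mk' N))).index = p ^ k := by
  classical
  have h1 : N = (⊥ : Subgroup (X ⧸ N)).comap (QuotientGroup.mk' N) := by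
    rw [MonoidHom.comap_bot, QuotientGroup.ker_mk']
  have h2 : (N.subgroupOf ((pCore p (X ⧸ N)).comap (QuotientGroup.mk' N))).index =
      N.relIndex ((pCore p (X ⧸ N)).comap (QuotientGroup.mk' N)) := rfl
  rw [h2]
  have h3 : N.relIndex ((pCore p (X ⧸ N)).comap (QuotientGroup.mk' N)) =
      ((⊥ : Subgroup (X ⧸ N)).comap (QuotientGroup.mk' N)).relIndex ((pCore p (X ⧸ N)).comap (QuotientGroup.mk' N)) := by
    rw [← h1]
  rw [h3, Subgroup.relIndex_comap, Subgroup.relIndex_bot_left]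
  rw [Subgroup.map_comap_eq_self_of_surjective (QuotientGroup.mk'_surjective _)]
  exact (Cfsg.Agent.Lib.Core.pCore_isPGroup p (X ⧸ N)).exists_card_eq

/-- The centralizer condition passes to `C_G(R)`. -/
theorem centralizer_le_local {K L Q R : Subgroup G} [hKn : K.Normal] [hLn : L.Normal] (hKL : K ≤ L)
    (hK : ¬ p ∣ Nat.card K) (hLp : ∀ l ∈ L, ∃ n : ℕ, l ^ p ^ n ∈ K)
    (hQ : Cfsg.Agent.Lib.Techniques.SylowIn p Q L) (hCQ : Cen Q ≤ L) (hR : IsPGroup p R)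
    (Q' : Subgroup (Cen R))
    (hQ'L : Q' ≤ (pCore p (Cen R ⧸ K.subgroupOf (Cen R))).comap (QuotientGroup.mk' (K.subgroupOf (Cen R))))
    (hQ'p : IsPGroup p Q')
    (hQ'i : ¬ p ∣ Q'.relIndex ((pCore p (Cen R ⧸ K.subgroupOf (Cen R))).comap (QuotientGroup.mk' (K.subgroupOf (Cen R))))) :
    Subgroup.centralizer (Q' : Set (Cen R)) ≤
      (pCore p (Cen R ⧸ K.subgroupOf (Cen R))).comap (QuotientGroup.mk' (K.subgroupOf (Cen R))) := by
  classical
  set K' := K.subgroupOf (Cen R) with hK'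
  set L' := (pCore p (Cen R ⧸ K')).comap (QuotientGroup.mk' K') with hL'
  set W : Subgroup (Cen R) := L.subgroupOf (Cen R) with hW
  haveI hWn : W.Normal := Subgroup.normal_subgroupOf
  set W' : Subgroup (Cen R ⧸ K') := W.map (QuotientGroup.mk' K') with hW'
  haveI hW'n : W'.Normal := hWn.map _ (QuotientGroup.mk'_surjective K')
  have hW'p : IsPGroup p W' := by
    rintro ⟨_, z, hz, rfl⟩
    have hz' : (z : G) ∈ L := hz
    obtain ⟨n, hn⟩ := hLp _ hz'
    refine ⟨n, Subtype.ext ?_⟩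
    show (QuotientGroup.mk' K' z) ^ p ^ n = 1
    rw [← map_pow]
    apply (QuotientGroup.eq_one_iff _).2
    rw [hK', Subgroup.mem_subgroupOf]
    simpa using hn
  have hWL' : W ≤ L' := by
    intro z hz
    exact Cfsg.Agent.Lib.Core.le_pCore hW'n hW'p (Subgroup.mem_map_of_mem _ hz)
  set T' : Subgroup (Cen R ⧸ K') := Subgroup.centralizer (W' : Set (Cen R ⧸ K')) with hT'
  haveI hT'n : T'.Normal := Subgroup.normal_centralizer
  have hT'p : IsPGroup p T' := by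
    rintro ⟨t', ht'⟩
    obtain ⟨t, rfl⟩ := QuotientGroup.mk'_surjective K' t'
    set a := (orderOf t).factorization p with ha
    have hord : orderOf (t ^ p ^ a) = orderOf t / p ^ a := by
      rw [orderOf_pow']
      · congr 1
        exact Nat.gcd_eq_right (Nat.ordProj_dvd _ _)
      · exact (pow_pos hp.out.pos _).ne'
    have hnd : ¬ p ∣ orderOf (((t ^ p ^ a : Cen R)) : G) := by
      rw [Subgroup.orderOf_coe, hord]
      exact Nat.not_dvd_ordCompl hp.out (orderOf_pos t).ne'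
    have hmemT : QuotientGroup.mk' K' (t ^ p ^ a) ∈ T' := by
      rw [map_pow]
      exact T'.pow_mem ht' _
    have hy1 : (((t ^ p ^ a : Cen R)) : G) ∈ K := by
      refine mem_of_trivial_action hKL hK hLp hQ hCQ hnd ?_
      refine trivial_on_quot hKL hK hLp hR (t ^ p ^ a : Cen R).2 hnd ?_
      intro z hz hzc
      have hzW : (⟨z, hzc⟩ : Cen R) ∈ W := hz
      have h1 := Subgroup.mem_centralizer_iff.1 hmemT _ (Subgroup.mem_map_of_mem _ hzW)
      have h2 : QuotientGroup.mk' K' ((t ^ p ^ a : Cen R) * ⟨z, hzc⟩ * (t ^ p ^ a : Cen R)⁻¹ * ⟨z, hzc⟩⁻¹) = 1 := by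
        rw [map_mul, map_mul, map_mul, map_inv, map_inv, ← h1]
        group
      have h3 := (QuotientGroup.eq_one_iff _).1 h2
      rw [hK', Subgroup.mem_subgroupOf] at h3
      simpa using h3
    refine ⟨a, Subtype.ext ?_⟩
    show (QuotientGroup.mk' K' t) ^ p ^ a = 1
    rw [← map_pow]
    apply (QuotientGroup.eq_one_iff _).2
    rw [hK', Subgroup.mem_subgroupOf]
    exact hy1
  intro x hx
  show QuotientGroup.mk' K' x ∈ pCore p (Cen R ⧸ K')
  apply Cfsg.Agent.Lib.Core.le_pCore hT'n hT'p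
  rw [hT', Subgroup.mem_centralizer_iff]
  rintro _ ⟨z, hz, rfl⟩
  have hqL' : ∀ z ∈ L', ∃ n : ℕ, z ^ p ^ n ∈ K' := by
    intro z hz
    obtain ⟨n, hn⟩ := Cfsg.Agent.Lib.Core.pCore_isPGroup p (Cen R ⧸ K') ⟨_, hz⟩
    refine ⟨n, ?_⟩
    have h1 : QuotientGroup.mk' K' (z ^ p ^ n) = 1 := by
      rw [map_pow]
      exact congrArg Subtype.val hn
    exact (QuotientGroup.eq_one_iff _).1 h1
  have hsup : L' ≤ Q' ⊔ K' := le_sup_of_sylowIn hqL' ⟨hQ'L, hQ'p, hQ'i⟩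
  obtain ⟨q, hq, k, hk, rfl⟩ := Subgroup.mem_sup_of_normal_right.1 (hsup (hWL' hz))
  have hk1 : QuotientGroup.mk' K' k = 1 := (QuotientGroup.eq_one_iff k).2 hk
  have hx' := Subgroup.mem_centralizer_iff.1 hx q hq
  show QuotientGroup.mk' K' (q * k) * QuotientGroup.mk' K' x = QuotientGroup.mk' K' x * QuotientGroup.mk' K' (q * k)
  rw [map_mul, hk1, mul_one, ← map_mul, ← map_mul, hx']

/-- **Fong, local form**: above an invariant character of `K` only one block of `C_G(R)` occurs. -/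
theorem fong_pair_unique (hM : IsPModular p M) {K L Q : Subgroup G} [hKn : K.Normal] [hLn : L.Normal] (hKL : K ≤ L)
    (hK : ¬ p ∣ Nat.card K) (hLp : ∀ l ∈ L, ∃ n : ℕ, l ^ p ^ n ∈ K)
    (hQ : Cfsg.Agent.Lib.Techniques.SylowIn p Q L) (hCQ : Cen Q ≤ L) {θ : IrrCharacter K}
    (hinv : ∀ g : G, conjIrr K g θ = θ) {R : Subgroup G} (hR : IsPGroup p R)
    {f₁ f₂ : Set (IrrCharacter (Cen R))} (h₁ : IsBrauerPairOf p M (overSet K ({θ} : Set (IrrCharacter K))) R f₁)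
    (h₂ : IsBrauerPairOf p M (overSet K ({θ} : Set (IrrCharacter K))) R f₂) : f₁ = f₂ := by
  classical
  set E := blockElt (overSet K ({θ} : Set (IrrCharacter K))) with hE
  have hEc : IsCentralElt E := isCentralElt_blockElt _
  have hK' : ¬ p ∣ Nat.card (K.subgroupOf (Cen R)) := by
    intro hd
    apply hK
    refine hd.trans ?_
    let f : K.subgroupOf (Cen R) →* K := { toFun := fun x => ⟨x.1.1, x.2⟩, map_one' := rfl, map_mul' := fun _ _ => rfl }
    exact Subgroup.card_dvd_of_injective f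
      (fun a b h => Subtype.ext (Subtype.ext (congrArg (fun z : K => (z : G)) h)))
  have hsupp : incl (K.subgroupOf (Cen R)) (resAlg (K.subgroupOf (Cen R)) (resAlg (Cen R) E)) = resAlg (Cen R) E := by
    apply Block.incl_resAlg_of_support
    intro g hg
    rw [coeff_resAlg, hE, ← incl_blockElt_eq_over K (isStable_singleton K hinv)]
    exact coeff_incl_of_notMem K _ hg
  have hce : IsCentralElt (incl (K.subgroupOf (Cen R)) (resAlg (K.subgroupOf (Cen R)) (resAlg (Cen R) E))) := by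
    rw [hsupp]
    exact isCentralElt_resAlg_of_isInvBy (hEc.isInvBy _)
  have key : ∀ {f : Set (IrrCharacter (Cen R))}, IsBrauerPairOf p M (overSet K ({θ} : Set (IrrCharacter K))) R f →
      ∀ ξ ∈ f, ∀ ζ : IrrCharacter (K.subgroupOf (Cen R)),
        classInner (fun n : K.subgroupOf (Cen R) => (ξ : Cen R → ℂ) n) (ζ : K.subgroupOf (Cen R) → ℂ) ≠ 0 →
        ¬ MemLocalIdeal M (om (ζ : K.subgroupOf (Cen R) → ℂ) (resAlg (K.subgroupOf (Cen R)) (resAlg (Cen R) E))) := by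
    intro f hf ξ hξ ζ hζ hcon
    obtain ⟨-, -, hom⟩ := isBrauerPairOf_iff.1 hf
    have h1 := hom ξ hξ
    have h2 := om_incl_of_constituent (K.subgroupOf (Cen R)) ξ ζ hζ hce
    rw [hsupp] at h2
    rw [h2] at h1
    exact not_memLocalIdeal_one (by simpa using memLocalIdeal_sub hcon h1)
  obtain ⟨-, hf₁⟩ := isBrauerPairOf_iff.1 h₁ |>.1
  obtain ⟨-, hf₂⟩ := isBrauerPairOf_iff.1 h₂ |>.1
  obtain ⟨ξ₁, hξ₁⟩ := IsPBlock_nonempty hf₁
  obtain ⟨ξ₂, hξ₂⟩ := IsPBlock_nonempty hf₂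
  obtain ⟨ζ, hζ⟩ := exists_constituent (K.subgroupOf (Cen R)) ξ₁
  have hinvζ : ∀ g : Cen R, conjIrr (K.subgroupOf (Cen R)) g ζ = ζ := by
    intro g
    have h2 : classInner (fun n : K.subgroupOf (Cen R) => (ξ₁ : Cen R → ℂ) n)
        (conjIrr (K.subgroupOf (Cen R)) g ζ : K.subgroupOf (Cen R) → ℂ) ≠ 0 := by
      rwa [classInner_conjIrr]
    exact zeta_unique hM K hK hinv hR (key h₁ ξ₁ hξ₁ _ h2) (key h₁ ξ₁ hξ₁ _ hζ)
  have hNF : K.subgroupOf (Cen R) ≤ (pCore p (Cen R ⧸ K.subgroupOf (Cen R))).comap (QuotientGroup.mk' (K.subgroupOf (Cen R))) := by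
    intro x hx
    have h1 : QuotientGroup.mk' (K.subgroupOf (Cen R)) x = 1 := (QuotientGroup.eq_one_iff x).2 hx
    show QuotientGroup.mk' (K.subgroupOf (Cen R)) x ∈ pCore p (Cen R ⧸ K.subgroupOf (Cen R))
    rw [h1]
    exact Subgroup.one_mem _
  obtain ⟨B', hB', hmem, -, -⟩ := fong_general (G := Cen R) (K.subgroupOf (Cen R))
    ((pCore p (Cen R ⧸ K.subgroupOf (Cen R))).comap (QuotientGroup.mk' (K.subgroupOf (Cen R))))
    hM hNF hK' (index_subgroupOf_comap_pCore _) (fun Q' h1 h2 h3 => centralizer_le_local hKL hK hLp hQ hCQ hR Q' h1 h2 h3) hinvζ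
  have hmem₁ : ξ₁ ∈ B' := (hmem ξ₁).2 hζ
  have hmem₂ : ξ₂ ∈ B' := by
    obtain ⟨ζ₂, hζ₂⟩ := exists_constituent (K.subgroupOf (Cen R)) ξ₂
    have : ζ₂ = ζ := zeta_unique hM K hK hinv hR (key h₂ ξ₂ hξ₂ _ hζ₂) (key h₁ ξ₁ hξ₁ _ hζ)
    rw [this] at hζ₂
    exact (hmem ξ₂).2 hζ₂
  exact (blocks_eq_or_disjoint hf₁ hB' hξ₁ hmem₁).trans (blocks_eq_or_disjoint hf₂ hB' hξ₂ hmem₂).symm

/-- **Fong's theorem on `O_{p'}(G)`**, with the local uniqueness. -/
theorem fong_pPrimeCore_main {G : Type*} [Group G] [Fintype G] (p : ℕ) [Fact p.Prime] (M : Ideal AlgInt)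
    (hM : IsPModular p M) (Q : Subgroup G) (hQL : Q ≤ pPrimePCore p G) (hQp : IsPGroup p Q)
    (hQS : ¬ p ∣ Q.relIndex (pPrimePCore p G)) (hCQ : Subgroup.centralizer (Q : Set G) ≤ pPrimePCore p G)
    (θ : IrrCharacter (pPrimeCore p G))
    (hθ : ∀ g : G, IsConjCharOf (pPrimeCore p G) g (θ : pPrimeCore p G → ℂ) (θ : pPrimeCore p G → ℂ))
    (B : Set (IrrCharacter G))
    (hBdef : ∀ χ : IrrCharacter G, χ ∈ B ↔ classInner (fun k : pPrimeCore p G => (χ : G → ℂ) k) (θ : pPrimeCore p G → ℂ) ≠ 0) :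
    IsPBlock M B ∧ (∀ S : Sylow p G, IsDefectGroup p M B S) ∧ ∀ R : Subgroup G, IsPGroup p R →
      ∃! f : Set (IrrCharacter (Subgroup.centralizer (R : Set G))), IsInducedBlock M (Subgroup.centralizer (R : Set G)) f B := by
  classical
  haveI : M.IsPrime := hM.2.1.isPrime
  haveI hLn : (pPrimePCore p G).Normal := by
    unfold pPrimePCore
    exact Subgroup.Normal.comap inferInstance _
  have hKL : pPrimeCore p G ≤ pPrimePCore p G := by
    intro x hx
    show QuotientGroup.mk' (pPrimeCore p G) x ∈ pCore p (G ⧸ pPrimeCore p G)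
    have h1 : QuotientGroup.mk' (pPrimeCore p G) x = 1 := (QuotientGroup.eq_one_iff x).2 hx
    rw [h1]
    exact Subgroup.one_mem _
  have hK' : ¬ p ∣ Nat.card (pPrimeCore p G) := Cfsg.Agent.Lib.Core.not_dvd_card_pPrimeCore
  have hinv : ∀ g : G, conjIrr (pPrimeCore p G) g θ = θ := by
    intro g
    apply Subtype.ext
    funext n
    exact hθ g n _ rfl
  have hLp : ∀ l ∈ pPrimePCore p G, ∃ n : ℕ, l ^ p ^ n ∈ pPrimeCore p G := by
    intro l hl
    exact Cfsg.Agent.Lib.Techniques.exists_pow_mem_pPrimeCore hl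
  have hQ : Cfsg.Agent.Lib.Techniques.SylowIn p Q (pPrimePCore p G) := ⟨hQL, hQp, hQS⟩
  have hC : ∀ Q' : Subgroup G, Q' ≤ pPrimePCore p G → IsPGroup p Q' → ¬ p ∣ Q'.relIndex (pPrimePCore p G) →
      Subgroup.centralizer (Q' : Set G) ≤ pPrimePCore p G := by
    intro Q' h1 h2 h3 x hx
    obtain ⟨h, hh, he⟩ := hQ.exists_conj_eq (T' := Q') ⟨h1, h2, h3⟩
    have h4 : h⁻¹ * x * h ∈ Subgroup.centralizer (Q : Set G) := by
      rw [Subgroup.mem_centralizer_iff]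
      intro q hq
      have h5 : h * q * h⁻¹ ∈ Q' := by
        rw [← he]
        exact ⟨q, hq, rfl⟩
      have h6 := Subgroup.mem_centralizer_iff.1 hx _ h5
      have h7 : q * (h⁻¹ * x * h) = h⁻¹ * ((h * q * h⁻¹) * x) * h := by group
      rw [h7, h6]
      group
    have h8 := hCQ h4
    have h9 := hLn.conj_mem _ h8 h
    have e : h * (h⁻¹ * x * h) * h⁻¹ = x := by group
    rwa [e] at h9
  obtain ⟨B', hB', hmem, hSyl, -⟩ := fong_general (pPrimeCore p G) (pPrimePCore p G) hM hKL hK'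
    index_subgroupOf_pPrimePCore hC hinv
  have hBB : B = B' := by
    ext χ
    rw [hBdef, hmem]
  subst hBB
  have hBo : B = overSet (pPrimeCore p G) ({θ} : Set (IrrCharacter (pPrimeCore p G))) := by
    ext χ
    rw [hmem]
    constructor
    · intro h
      exact ⟨θ, rfl, h⟩
    · rintro ⟨θ', hθ', h⟩
      rw [Set.mem_singleton_iff] at hθ'
      rwa [hθ'] at h
  refine ⟨hB', hSyl, fun R hR => ?_⟩
  obtain ⟨S, hS⟩ := hR.exists_le_sylow
  have hD := hSyl S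
  obtain ⟨f₀, hf₀⟩ := exists_pair_on_defect hM hD hB'
  have hmax := isMaximal_of_defect hM hD hf₀
  have hPe := (isBrauerPairOf_iff.1 hf₀).1
  obtain ⟨f, hf, hle⟩ := exists_subpair hM hPe _ R rfl hS
  have hpair : IsBrauerPairOf p M B R f := isBrauerPairOf_of_le hM hmax hle
  refine ⟨f, isInducedBlock_of_pair hM hpair, fun f' hf' => ?_⟩
  have hpair' := isBrauerPairOf_of_induced hR hf'
  rw [hBo] at hpair hpair'
  exact fong_pair_unique hM hKL hK' hLp hQ hCQ hinv hR hpair' hpair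

end Main

end Cfsg.Agent.Lib.BPair
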