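import Cfsg.Agent.Lib.BPair.AlperinDade
import Cfsg.Agent.Lib.Char.Gallagher
import Cfsg.Agent.Lib.Degree.Sums
import Cfsg.Agent.S0886

/-!
# Fully ramified characters over a normal subgroup
-/

set_option autoImplicit false
set_option linter.unusedSectionVars false
set_option linter.unusedSimpArgs false
set_option linter.unusedVariables false

open scoped ComplexConjugate
open Cfsg MonoidAlgebra
open Cfsg.Agent.Lib.Block Cfsg.Agent.Lib.Char Cfsg.Agent.Lib.CharExtra Cfsg.Agent.Lib.Degree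

namespace Cfsg.Agent.Lib.BPair

attribute [local instance] subFintype dualFintype

section CosetNorm

variable {K : Type*} [Group K] [Fintype K] {Q : Type*} [CommGroup Q] [Finite Q]

theorem classInner_twist_eq_zero (π : K →* Q) (hπ : Function.Surjective π) (l : Q →* ℂˣ) (hl : l ≠ 1)
    (χ : IrrCharacter K) (hr : IsIrrCharacter π.ker (fun n : π.ker => (χ : K → ℂ) n)) :
    classInner (fun t => (χ : K → ℂ) t * ((l (π t) : ℂˣ) : ℂ)) (χ : K → ℂ) = 0 := by
  classical
  let I₁ := oneIrr π.ker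
  have h1 := classInner_mul_extension π.ker (φ := (I₁ : π.ker → ℂ)) (ϑ := fun n : π.ker => (χ : K → ℂ) n)
    I₁.2 hr (by
      have : (I₁ : π.ker → ℂ) * (fun n : π.ker => (χ : K → ℂ) n) = fun n : π.ker => (χ : K → ℂ) n := by
        funext n; simp [I₁, oneIrr_coe]
      rw [this]; exact hr) χ.2 (fun n => rfl)
    (β := (linI π l : K → ℂ)) (β' := ((oneIrr K : IrrCharacter K) : K → ℂ)) (e := 1) (e' := 1)
    (IsIrrCharacter.isCharacter (linI π l).2) (IsIrrCharacter.isCharacter (oneIrr K).2)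
    (by
      funext n
      have hn : π n = 1 := MonoidHom.mem_ker.1 n.2
      simp [I₁, oneIrr_coe, linI, hn])
    (by
      funext n
      simp [I₁, oneIrr_coe])
  have h2 : classInner ((linI π l : K → ℂ)) ((oneIrr K : IrrCharacter K) : K → ℂ) = 0 := by
    refine classInner_irr_of_ne (linI π l).2 (oneIrr K).2 ?_
    intro h
    apply hl
    ext q
    obtain ⟨t, rfl⟩ := hπ q
    have := congrFun h t
    simpa [linI, oneIrr_coe] using this
  have h3 : (fun t => (χ : K → ℂ) t * ((l (π t) : ℂˣ) : ℂ)) = (linI π l : K → ℂ) * (χ : K → ℂ) := by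
    funext t
    simp [linI, mul_comm]
  have h4 : (χ : K → ℂ) = ((oneIrr K : IrrCharacter K) : K → ℂ) * (χ : K → ℂ) := by
    funext t
    simp [oneIrr_coe]
  rw [h3, ← h2, ← h1, ← h4]

theorem coset_norm_of_irr_restrict (π : K →* Q) (hπ : Function.Surjective π)
    (χ : IrrCharacter K) (hr : IsIrrCharacter π.ker (fun n : π.ker => (χ : K → ℂ) n)) (q : Q) :
    ∑ t, (open Classical in if π t = q then (χ : K → ℂ) t * conj ((χ : K → ℂ) t) else 0) = (Nat.card π.ker : ℂ) := by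
  classical
  have hQ0 : (Nat.card Q : ℂ) ≠ 0 := by
    have : Nat.card Q ≠ 0 := Nat.card_pos.ne'
    exact_mod_cast this
  have hK0 : (Nat.card K : ℂ) ≠ 0 := by
    have : Nat.card K ≠ 0 := Nat.card_pos.ne'
    exact_mod_cast this
  have hKc : (Nat.card K : ℂ) = (Nat.card π.ker : ℂ) * (Nat.card Q : ℂ) := by
    rw [← card_ker_mul π hπ]
    push_cast
    rfl
  have h1 : (Nat.card Q : ℂ) * ∑ t, (if π t = q then (χ : K → ℂ) t * conj ((χ : K → ℂ) t) else 0) =
      ∑ l : Q →* ℂˣ, (((l q)⁻¹ : ℂˣ) : ℂ) * ∑ t, (χ : K → ℂ) t * ((l (π t) : ℂˣ) : ℂ) * conj ((χ : K → ℂ) t) := by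
    simp only [Finset.mul_sum]
    rw [Finset.sum_comm]
    refine Finset.sum_congr rfl fun t _ => ?_
    have h3 := sum_dual (π t * q⁻¹)
    have h4 : (if π t * q⁻¹ = 1 then (Nat.card Q : ℂ) else 0) * ((χ : K → ℂ) t * conj ((χ : K → ℂ) t)) =
        (Nat.card Q : ℂ) * (if π t = q then (χ : K → ℂ) t * conj ((χ : K → ℂ) t) else 0) := by
      by_cases h : π t = q
      · rw [if_pos (by rw [h, mul_inv_cancel]), if_pos h]
      · rw [if_neg (fun h' => h (mul_inv_eq_one.mp h')), if_neg h]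
        ring
    rw [← h4, ← h3, Finset.sum_mul]
    refine Finset.sum_congr rfl fun l _ => ?_
    simp only [map_mul, map_inv, Units.val_mul]
    ring
  have h2 : ∀ l : Q →* ℂˣ, ∑ t, (χ : K → ℂ) t * ((l (π t) : ℂˣ) : ℂ) * conj ((χ : K → ℂ) t) =
      (Nat.card K : ℂ) * classInner (fun t => (χ : K → ℂ) t * ((l (π t) : ℂˣ) : ℂ)) (χ : K → ℂ) := by
    intro l
    rw [classInner_def, ← mul_assoc, mul_inv_cancel₀ hK0, one_mul]
  simp only [h2] at h1
  rw [Finset.sum_eq_single (1 : Q →* ℂˣ)] at h1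
  · have h5 : classInner (fun t => (χ : K → ℂ) t * (((1 : Q →* ℂˣ) (π t) : ℂˣ) : ℂ)) (χ : K → ℂ) = 1 := by
      simp only [MonoidHom.one_apply, Units.val_one, mul_one]
      exact classInner_irr_self χ.2
    rw [h5] at h1
    simp only [MonoidHom.one_apply, inv_one, Units.val_one, one_mul, mul_one] at h1
    rw [hKc, mul_comm (Nat.card π.ker : ℂ)] at h1
    exact mul_left_cancel₀ hQ0 h1
  · intro l _ hl
    rw [classInner_twist_eq_zero π hπ l hl χ hr]
    simp
  · simp

theorem exists_fiber_ne_zero (π : K →* Q) (hπ : Function.Surjective π)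
    (χ : IrrCharacter K) (hr : IsIrrCharacter π.ker (fun n : π.ker => (χ : K → ℂ) n)) (q : Q) :
    ∃ t, π t = q ∧ (χ : K → ℂ) t ≠ 0 := by
  classical
  by_contra hcon
  push Not at hcon
  have h := coset_norm_of_irr_restrict π hπ χ hr q
  rw [Finset.sum_eq_zero] at h
  · have : Nat.card π.ker ≠ 0 := Nat.card_pos.ne'
    exact this (by exact_mod_cast h.symm)
  · intro t _
    split_ifs with h1
    · rw [hcon t h1]; simp
    · rfl

end CosetNorm

section Main

variable {H : Type*} [Group H] [Fintype H] (Z : Subgroup H) [hZ : Z.Normal]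

/-- A fully ramified character vanishes off the normal subgroup. -/
theorem eq_zero_of_fullyRamified (χ : IrrCharacter H) (θ : IrrCharacter Z) (e : ℕ) (he : e ^ 2 = Z.index)
    (hχ : ∀ z : Z, (χ : H → ℂ) z = (e : ℂ) * (θ : Z → ℂ) z) {g : H} (hg : g ∉ Z) : (χ : H → ℂ) g = 0 := by
  classical
  have h1 := classInner_irr_self χ.2
  have h2 := classInner_irr_self θ.2
  rw [classInner_def] at h1 h2
  have hH : (Nat.card H : ℂ) ≠ 0 := by
    have : Nat.card H ≠ 0 := Nat.card_pos.ne'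
    exact_mod_cast this
  have hZ0 : (Nat.card Z : ℂ) ≠ 0 := by
    have : Nat.card Z ≠ 0 := Nat.card_pos.ne'
    exact_mod_cast this
  have h3 : ∑ g, (χ : H → ℂ) g * conj ((χ : H → ℂ) g) = (Nat.card H : ℂ) := by
    field_simp at h1
    simpa using h1
  have h4 : ∑ z : Z, (θ : Z → ℂ) z * conj ((θ : Z → ℂ) z) = (Nat.card Z : ℂ) := by
    field_simp at h2
    simpa using h2
  have hcard : ((e : ℂ)) ^ 2 * (Nat.card Z : ℂ) = (Nat.card H : ℂ) := by
    have := Subgroup.card_mul_index Z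
    rw [← he] at this
    rw [← this]
    push_cast
    ring
  have h5 : ∑ z : Z, (χ : H → ℂ) z * conj ((χ : H → ℂ) z) = (Nat.card H : ℂ) := by
    rw [← hcard, ← h4, Finset.mul_sum]
    refine Finset.sum_congr rfl fun z _ => ?_
    rw [hχ z]
    simp only [map_mul, Complex.conj_natCast]
    ring
  -- real form
  have hreal : ∀ g, (χ : H → ℂ) g * conj ((χ : H → ℂ) g) = ((Complex.normSq ((χ : H → ℂ) g) : ℝ) : ℂ) :=
    fun g => Complex.mul_conj _
  have h6 : ∑ g, Complex.normSq ((χ : H → ℂ) g) = ∑ z : Z, Complex.normSq ((χ : H → ℂ) z) := by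
    have : ((∑ g, Complex.normSq ((χ : H → ℂ) g) : ℝ) : ℂ) = ((∑ z : Z, Complex.normSq ((χ : H → ℂ) z) : ℝ) : ℂ) := by
      push_cast
      simp only [← hreal]
      rw [h3, h5]
    exact_mod_cast this
  have h7 : ∑ g ∈ Finset.univ.filter (· ∉ Z), Complex.normSq ((χ : H → ℂ) g) = 0 := by
    have h8 := Finset.sum_filter_add_sum_filter_not Finset.univ (· ∈ Z) (fun g => Complex.normSq ((χ : H → ℂ) g))
    have h9 : ∑ z : Z, Complex.normSq ((χ : H → ℂ) z) =
        ∑ g ∈ Finset.univ.filter (· ∈ Z), Complex.normSq ((χ : H → ℂ) g) :=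
      (Finset.sum_subtype (F := subFintype Z) (Finset.univ.filter (· ∈ Z)) (p := (· ∈ Z)) (by simp)
        (fun g => Complex.normSq ((χ : H → ℂ) g))).symm
    linarith
  have h10 := (Finset.sum_eq_zero_iff_of_nonneg (fun g _ => Complex.normSq_nonneg _)).1 h7 g (by simpa using hg)
  exact Complex.normSq_eq_zero.1 h10

/-- A fully ramified section has no self-centralizing cyclic subgroup. -/
theorem centralizer_ne_of_fullyRamified (χ : IrrCharacter H) (θ : IrrCharacter Z) (e : ℕ) (he : e ^ 2 = Z.index)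
    (hχ : ∀ z : Z, (χ : H → ℂ) z = (e : ℂ) * (θ : Z → ℂ) z) (hZt : Z ≠ ⊤) (C : Subgroup (H ⧸ Z)) (hC : IsCyclic C) :
    Subgroup.centralizer (C : Set (H ⧸ Z)) ≠ C := by
  classical
  intro hcen
  have he0 : (e : ℂ) ≠ 0 := by
    intro h
    have h1 : e = 0 := by exact_mod_cast h
    have h2 : Z.index ≠ 0 := Subgroup.index_ne_zero_of_finite
    rw [← he, h1] at h2
    simp at h2
  -- the centralizer is not the trivial group
  have hCbot : C ≠ ⊥ := by
    rintro rfl
    have h1 : Subgroup.centralizer (((⊥ : Subgroup (H ⧸ Z)) : Subgroup (H ⧸ Z)) : Set (H ⧸ Z)) = ⊤ := by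
      simp
    rw [h1] at hcen
    apply hZt
    have h2 : (⊤ : Subgroup (H ⧸ Z)) = ⊥ := hcen
    rw [← QuotientGroup.ker_mk' Z, MonoidHom.ker_eq_top_iff] 
    ext g
    have : (g : H ⧸ Z) ∈ (⊥ : Subgroup (H ⧸ Z)) := by rw [← h2]; trivial
    simpa using this
  -- lift
  let K : Subgroup H := C.comap (QuotientGroup.mk' Z)
  have hZK : Z ≤ K := by
    intro z hz
    change ((z : H) : H ⧸ Z) ∈ C
    rw [(QuotientGroup.eq_one_iff z).2 hz]
    exact C.one_mem
  let N : Subgroup K := Z.subgroupOf K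
  haveI hN : N.Normal := Subgroup.normal_subgroupOf
  -- the cyclic generator
  obtain ⟨c, hc⟩ := hC.exists_generator
  -- `K / N` is cyclic
  let π₀ : K →* (H ⧸ Z) := (QuotientGroup.mk' Z).comp K.subtype
  have hπ₀ : ∀ k : K, π₀ k ∈ C := fun k => k.2
  let π : K →* C := π₀.codRestrict C hπ₀
  have hπs : Function.Surjective π := by
    rintro ⟨y, hy⟩
    obtain ⟨g, rfl⟩ := QuotientGroup.mk_surjective y
    exact ⟨⟨g, hy⟩, rfl⟩
  have hker : π.ker = N := by
    ext k
    rw [MonoidHom.mem_ker, Subgroup.mem_subgroupOf]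
    constructor
    · intro h
      have := congrArg Subtype.val h
      exact (QuotientGroup.eq_one_iff (k : H)).1 this
    · intro h
      exact Subtype.ext ((QuotientGroup.eq_one_iff (k : H)).2 h)
  letI : CommGroup C := IsCyclic.commGroup
  have hcyc : IsCyclic (K ⧸ N) := by
    have e := QuotientGroup.quotientKerEquivOfSurjective π hπs
    have h1 : IsCyclic (K ⧸ π.ker) := isCyclic_of_surjective e.symm e.symm.surjective
    have e2 : (K ⧸ π.ker) ≃* (K ⧸ N) := QuotientGroup.quotientMulEquivOfEq hker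
    exact isCyclic_of_surjective e2 e2.surjective
  let θ' : N → ℂ := fun n => (θ : Z → ℂ) ⟨n.1.1, n.2⟩
  have hθ' : IsIrrCharacter N θ' := isIrr_comp_equiv (Subgroup.subgroupOfEquivOfLe hZK) θ.2
  have hinv : ∀ (g : K) (n : N), θ' ⟨g * n * g⁻¹, hN.conj_mem (n : K) n.2 g⟩ = θ' n := by
    intro g n
    have h1 := hχ ⟨n.1.1, n.2⟩
    have h2 := hχ ⟨g.1 * n.1.1 * g.1⁻¹, hZ.conj_mem _ n.2 _⟩
    have h3 : (χ : H → ℂ) (g.1 * n.1.1 * g.1⁻¹) = (χ : H → ℂ) n.1.1 :=
      (IsCharacter.isClassFunction (IsIrrCharacter.isCharacter χ.2)) _ _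
    simp only at h1 h2
    rw [h3, h1] at h2
    exact (mul_left_cancel₀ he0 h2).symm
  obtain ⟨β, hβ, hext⟩ := Cfsg.Agent.S0886.result N hcyc θ' hθ' hinv
  have hr : IsIrrCharacter π.ker (fun n : π.ker => ((⟨β, hβ⟩ : IrrCharacter K) : K → ℂ) n) := by
    have h2 : ∀ {A B : Subgroup K}, A = B → IsIrrCharacter A (fun n : A => β n) → IsIrrCharacter B (fun n : B => β n) := by
      rintro A B rfl h; exact h
    refine h2 hker.symm ?_
    have : (fun n : N => β n) = θ' := funext hext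
    rw [this]; exact hθ'
  obtain ⟨t, ht, hβt⟩ := exists_fiber_ne_zero π hπs ⟨β, hβ⟩ hr c
  have ht' : ((t : H) : H ⧸ Z) = (c : H ⧸ Z) := congrArg Subtype.val ht
  have htZ : (t : H) ∉ Z := by
    intro h
    apply hCbot
    rw [eq_bot_iff]
    intro a ha
    obtain ⟨i, hi⟩ := Subgroup.mem_zpowers_iff.1 (hc ⟨a, ha⟩)
    have h1 : (c : H ⧸ Z) = 1 := by
      rw [← ht']; exact (QuotientGroup.eq_one_iff _).2 h
    have h2 : a = (c : H ⧸ Z) ^ i := by
      have := congrArg Subtype.val hi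
      simpa using this.symm
    rw [h2, h1, one_zpow]
    exact Subgroup.one_mem _
  have hχt := eq_zero_of_fullyRamified Z χ θ e he hχ htZ
  have hsum := Cfsg.Agent.Lib.Degree.irr_sum_conj χ (t : H)⁻¹ (t : H)
  rw [hχt, mul_zero, zero_div] at hsum
  have hout : ∀ y : H, y ∉ K → (χ : H → ℂ) ((t : H)⁻¹ * (y * (t : H) * y⁻¹)) = 0 := by
    intro y hy
    apply eq_zero_of_fullyRamified Z χ θ e he hχ
    intro hmem
    apply hy
    have h1 : ((t : H) : H ⧸ Z)⁻¹ * ((y : H ⧸ Z) * ((t : H) : H ⧸ Z) * (y : H ⧸ Z)⁻¹) = 1 :=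
      (QuotientGroup.eq_one_iff _).2 hmem
    rw [ht'] at h1
    have h2 : (y : H ⧸ Z) * (c : H ⧸ Z) = (c : H ⧸ Z) * (y : H ⧸ Z) := by
      rw [inv_mul_eq_one] at h1
      exact (mul_inv_eq_iff_eq_mul.1 h1.symm)
    have h3 : (y : H ⧸ Z) ∈ Subgroup.centralizer (C : Set (H ⧸ Z)) := by
      rw [Subgroup.mem_centralizer_iff]
      intro a ha
      obtain ⟨i, hi⟩ := Subgroup.mem_zpowers_iff.1 (hc ⟨a, ha⟩)
      have h4 : a = (c : H ⧸ Z) ^ i := by
        have := congrArg Subtype.val hi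
        simpa using this.symm
      rw [h4]
      exact ((Commute.zpow_left h2.symm i)).eq
    rw [hcen] at h3
    exact h3
  have hin : ∀ y : K, (χ : H → ℂ) ((t : H)⁻¹ * ((y : H) * (t : H) * (y : H)⁻¹)) =
      (e : ℂ) * β (t⁻¹ * (y * t * y⁻¹)) := by
    intro y
    have h1 : t⁻¹ * (y * t * y⁻¹) ∈ π.ker := by
      rw [MonoidHom.mem_ker]
      simp only [map_mul, map_inv]
      rw [mul_comm (π y), mul_assoc (π t), mul_inv_cancel, mul_one, inv_mul_cancel]
    rw [hker] at h1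
    have h2 := hχ ⟨(t⁻¹ * (y * t * y⁻¹) : K).1, h1⟩
    have h3 := hext ⟨t⁻¹ * (y * t * y⁻¹), h1⟩
    simp only at h2 h3
    rw [h3]
    exact h2
  have hsum2 : ∑ y : H, (χ : H → ℂ) ((t : H)⁻¹ * (y * (t : H) * y⁻¹)) =
      ∑ y : K, (χ : H → ℂ) ((t : H)⁻¹ * ((y : H) * (t : H) * (y : H)⁻¹)) :=
    sum_eq_sum_subgroup (H := K) _ hout
  rw [hsum2, Finset.sum_congr rfl (fun y _ => hin y), ← Finset.mul_sum,
    Cfsg.Agent.Lib.Degree.irr_sum_conj (⟨β, hβ⟩ : IrrCharacter K) t⁻¹ t] at hsum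
  have hβ1 : β 1 ≠ 0 := map_one_ne_zero_of_irr hβ
  have hcardK : (Fintype.card K : ℂ) ≠ 0 := by
    have : Fintype.card K ≠ 0 := Fintype.card_ne_zero
    exact_mod_cast this
  have hinv' : β t⁻¹ = conj (β t) := IsCharacter.map_inv' (IsIrrCharacter.isCharacter hβ) t
  simp only at hsum
  rw [hinv'] at hsum
  have hne : (e : ℂ) * ((Fintype.card K : ℂ) * conj (β t) * β t / β 1) ≠ 0 := by
    apply mul_ne_zero he0
    apply div_ne_zero _ hβ1
    exact mul_ne_zero (mul_ne_zero hcardK (by simpa using hβt)) hβt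
  exact hne hsum

end Main

end Cfsg.Agent.Lib.BPair
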