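import Cfsg.Agent.Lib.BPair.SecAvg

/-!
# The number of characters of height zero and the rank of a `2`-subsection (S4541)
-/

set_option autoImplicit false
set_option linter.unusedSectionVars false
set_option linter.style.haveILetI false
set_option linter.unusedSimpArgs false
set_option linter.unnecessarySimpa false
set_option linter.unusedVariables false

open scoped ComplexConjugate
open Module

namespace Cfsg.Agent.Lib.BPair

open Cfsg Cfsg.Agent.Lib.Char Cfsg.Agent.Lib.Block Cfsg.Agent.Lib.Core Cfsg.Agent.Lib.CharExtra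

attribute [local instance] subFintype

/-- The arithmetic behind the bound. -/
theorem sambale_arith {I : Type*} (S : Finset I) (m : I → ℕ) (P l : ℕ) (hodd : ∀ χ ∈ S, Odd (m χ))
    (h1 : ∀ χ ∈ S, S.card ≤ P * m χ) (h2 : ∑ χ ∈ S, m χ ≤ P * l) :
    (Odd (Nat.sqrt l) → S.card ≤ Nat.sqrt l * P) ∧ (¬ Odd (Nat.sqrt l) → (Nat.sqrt l + 1) * S.card ≤ l * P) ∧
      (l ≤ 3 → S.card ≤ P) := by
  classical
  have main : (Odd (Nat.sqrt l) → S.card ≤ Nat.sqrt l * P) ∧ (¬ Odd (Nat.sqrt l) → (Nat.sqrt l + 1) * S.card ≤ l * P) := by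
    rcases S.eq_empty_or_nonempty with rfl | hne
    · simp
    obtain ⟨χ₀, hχ₀, hmin⟩ := Finset.exists_min_image S m hne
    obtain ⟨a, ha⟩ : ∃ a, a = m χ₀ := ⟨_, rfl⟩
    have hao : Odd a := ha ▸ hodd χ₀ hχ₀
    have hk1 : S.card ≤ P * a := ha ▸ h1 χ₀ hχ₀
    have hk2 : S.card * a ≤ P * l := by
      refine le_trans ?_ h2
      rw [← smul_eq_mul, ha]
      exact Finset.card_nsmul_le_sum S m _ hmin
    obtain ⟨s, hs⟩ : ∃ s, s = Nat.sqrt l := ⟨_, rfl⟩
    rw [← hs]
    have hs1 : s * s ≤ l := by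
      rw [hs]
      exact Nat.sqrt_le l
    have hs2 : l < (s + 1) * (s + 1) := by
      rw [hs]
      exact Nat.lt_succ_sqrt l
    constructor
    · intro hso
      by_cases has : a ≤ s
      · calc S.card ≤ P * a := hk1
          _ ≤ P * s := Nat.mul_le_mul_left _ has
          _ = s * P := mul_comm _ _
      · have h3 : s + 2 ≤ a := by
          obtain ⟨x, rfl⟩ := hso
          obtain ⟨y, rfl⟩ := hao
          omega
        have h4 : S.card * (s + 2) ≤ (s * P) * (s + 2) := by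
          calc S.card * (s + 2) ≤ S.card * a := Nat.mul_le_mul_left _ h3
            _ ≤ P * l := hk2
            _ ≤ P * (s * (s + 2)) := Nat.mul_le_mul_left _ (by nlinarith)
            _ = (s * P) * (s + 2) := by ring
        exact Nat.le_of_mul_le_mul_right h4 (by omega)
    · intro hso
      by_cases has : s + 1 ≤ a
      · calc (s + 1) * S.card ≤ a * S.card := Nat.mul_le_mul_right _ has
          _ = S.card * a := mul_comm _ _
          _ ≤ P * l := hk2
          _ = l * P := mul_comm _ _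
      · have h3 : a + 1 ≤ s := by
          have h5 : a ≠ s := by
            rintro rfl
            exact hso hao
          omega
        calc (s + 1) * S.card ≤ (s + 1) * (P * a) := Nat.mul_le_mul_left _ hk1
          _ = ((s + 1) * a) * P := by ring
          _ ≤ l * P := Nat.mul_le_mul_right _ (by nlinarith)
  refine ⟨main.1, main.2, fun hl => ?_⟩
  have hsq : Nat.sqrt l ≤ 1 := by
    have h1 : Nat.sqrt l ≤ Nat.sqrt 3 := Nat.sqrt_le_sqrt hl
    have h2 : Nat.sqrt 3 = 1 := by norm_num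
    omega
  by_cases hodd' : Odd (Nat.sqrt l)
  · have h3 := main.1 hodd'
    have h4 : Nat.sqrt l * P ≤ 1 * P := Nat.mul_le_mul_right _ hsq
    omega
  · have h3 := main.2 hodd'
    have h5 : Nat.sqrt l = 0 := by
      by_contra hh
      have : Nat.sqrt l = 1 := by omega
      rw [this] at hodd'
      exact hodd' odd_one
    rw [h5] at h3
    have h6 : l = 0 := by
      have h7 := Nat.lt_succ_sqrt l
      rw [h5] at h7
      omega
    rw [h6] at h3
    simp at h3
    rw [h3]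
    exact Nat.zero_le _

section Main

variable {G : Type*} [Group G] [Fintype G] {M : Ideal AlgInt}
  {u : G} [Fintype (Subgroup.centralizer ({u} : Set G))]

open Classical in
/-- The integers `a_χ`. -/
theorem exists_odd_bounds (hM : IsPModular 2 M) (hu : ∃ k, orderOf u = 2 ^ k)
    {b : Set (IrrCharacter (Subgroup.centralizer ({u} : Set G)))} {B : Set (IrrCharacter G)}
    (hind : IsInducedBlock M (Subgroup.centralizer ({u} : Set G)) b B) :
    ∃ m : IrrCharacter G → ℕ,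
      (∀ χ ∈ Finset.univ.filter (fun χ : IrrCharacter G => χ ∈ B ∧ blockHeight 2 B (χ : G → ℂ) = 0), Odd (m χ)) ∧
      (∀ χ ∈ Finset.univ.filter (fun χ : IrrCharacter G => χ ∈ B ∧ blockHeight 2 B (χ : G → ℂ) = 0),
        (Finset.univ.filter (fun χ : IrrCharacter G => χ ∈ B ∧ blockHeight 2 B (χ : G → ℂ) = 0)).card ≤
          2 ^ blockDefect 2 b * m χ) ∧
      ∑ χ ∈ Finset.univ.filter (fun χ : IrrCharacter G => χ ∈ B ∧ blockHeight 2 B (χ : G → ℂ) = 0), m χ ≤
        2 ^ blockDefect 2 b * blockRank 2 b := by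
  have := isPModular_isPrime hM
  obtain ⟨k, hk⟩ := hu
  have he := hind.1
  have hne := IsPBlock_nonempty he
  haveI : NeZero (2 ^ (k + 2)) := ⟨by positivity⟩
  have hN : u ^ 2 ^ (k + 2) = 1 := by
    rw [pow_add, pow_mul, ← hk, pow_orderOf_eq_one, one_pow]
  obtain ⟨c, a, hcc, hP, hα⟩ := exists_projMat (p := 2) hN hM ⟨k, hk⟩ he
  haveI : NumberField (CyclotomicField (2 ^ (k + 2)) ℚ) := IsCyclotomicExtension.numberField {2 ^ (k + 2)} ℚ _
  have hinj : Function.Injective (cycEmb (2 ^ (k + 2))) := (cycEmb (2 ^ (k + 2))).toRingHom.injective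
  have hint : ∀ χ ψ, IsIntegral ℤ (a χ ψ) := fun χ ψ => by
    have h1 := isIntegral_alpha (p := 2) b hne χ ψ
    rw [← hα] at h1
    exact (isIntegral_algHom_iff ((cycEmb (2 ^ (k + 2))).restrictScalars ℤ) hinj).1 h1
  obtain ⟨S, hS⟩ : ∃ S, S = Finset.univ.filter (fun χ : IrrCharacter G => χ ∈ B ∧ blockHeight 2 B (χ : G → ℂ) = 0) := ⟨_, rfl⟩
  rw [← hS]
  have hmem : ∀ χ, χ ∈ S ↔ χ ∈ B ∧ blockHeight 2 B (χ : G → ℂ) = 0 := fun χ => by
    rw [hS, Finset.mem_filter]
    simp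
  have hunit : ∀ χ ∈ S, ∀ ψ ∈ S, ¬ MemLocalIdeal M (alpha 2 u b χ ψ) := fun χ hχ ψ hψ =>
    not_memLocalIdeal_alpha hM ⟨k, hk⟩ hind ((hmem χ).1 hχ).1 ((hmem χ).1 hχ).2 ((hmem ψ).1 hψ).1 ((hmem ψ).1 hψ).2
  have hex : ∀ χ : IrrCharacter G, ∃ m : ℕ, χ ∈ S → av a χ = (m : ℝ) ∧ Odd m := by
    intro χ
    by_cases hχ : χ ∈ S
    · obtain ⟨z, hz1, hz2⟩ := hP.av_eq_int k hcc (χ := χ) (w := 0) (x := a χ χ) (by simp) (hint χ χ) hM (cycEmb _)
      rw [pow_zero, one_mul] at hz1
      rw [hα] at hz2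
      have hznn : 0 ≤ z := by
        have h1 := hP.av_nonneg χ
        rw [hz1] at h1
        exact_mod_cast h1
      obtain ⟨m, rfl⟩ := Int.eq_ofNat_of_zero_le hznn
      refine ⟨m, fun _ => ⟨by simpa using hz1, ?_⟩⟩
      by_contra hodd
      rw [Nat.not_odd_iff_even] at hodd
      have h2 : MemLocalIdeal M ((m : ℤ) : ℂ) := by
        rw [memLocalIdeal_intCast_iff hM]
        exact_mod_cast hodd.two_dvd
      have h3 := memLocalIdeal_add hz2 h2
      rw [sub_add_cancel] at h3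
      exact hunit χ hχ χ hχ h3
    · exact ⟨0, fun h => absurd h hχ⟩
  choose m hm using hex
  refine ⟨m, fun χ hχ => (hm χ hχ).2, fun χ hχ => ?_, ?_⟩
  · have h1 := hP.sum_pow_le χ S (a χ) (fun _ => 0) (fun ψ hψ => ⟨by simp, ?_, hint χ ψ⟩)
    · rw [(hm χ hχ).1] at h1
      simp only [pow_zero, Finset.sum_const, nsmul_eq_mul, mul_one] at h1
      exact_mod_cast h1
    · intro h0
      apply hunit χ hχ ψ hψ
      rw [← hα, h0, map_zero]
      exact memLocalIdeal_zero
  · have h1 : ∑ χ ∈ S, (m χ : ℝ) ≤ ∑ χ, av a χ := by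
      calc ∑ χ ∈ S, (m χ : ℝ) = ∑ χ ∈ S, av a χ := Finset.sum_congr rfl fun χ hχ => ((hm χ hχ).1).symm
        _ ≤ ∑ χ, av a χ := Finset.sum_le_sum_of_subset_of_nonneg (Finset.subset_univ _) fun χ _ _ => hP.av_nonneg χ
    rw [hP.sum_av] at h1
    exact_mod_cast h1

/-- Main statement of S4541. -/
theorem sambale_height_zero (hM : IsPModular 2 M) (hu : ∃ k, orderOf u = 2 ^ k)
    {b : Set (IrrCharacter (Subgroup.centralizer ({u} : Set G)))} {B : Set (IrrCharacter G)}
    (hind : IsInducedBlock M (Subgroup.centralizer ({u} : Set G)) b B) :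
    (Odd (Nat.sqrt (blockRank 2 b)) → Nat.card {χ : IrrCharacter G // χ ∈ B ∧ blockHeight 2 B (χ : G → ℂ) = 0} ≤
        Nat.sqrt (blockRank 2 b) * 2 ^ blockDefect 2 b) ∧
    (¬ Odd (Nat.sqrt (blockRank 2 b)) → (Nat.sqrt (blockRank 2 b) + 1) *
        Nat.card {χ : IrrCharacter G // χ ∈ B ∧ blockHeight 2 B (χ : G → ℂ) = 0} ≤ blockRank 2 b * 2 ^ blockDefect 2 b) ∧
    (blockRank 2 b ≤ 3 → Nat.card {χ : IrrCharacter G // χ ∈ B ∧ blockHeight 2 B (χ : G → ℂ) = 0} ≤ 2 ^ blockDefect 2 b) := by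
  classical
  obtain ⟨m, h1, h2, h3⟩ := exists_odd_bounds hM hu hind
  have hc : Nat.card {χ : IrrCharacter G // χ ∈ B ∧ blockHeight 2 B (χ : G → ℂ) = 0} =
      (Finset.univ.filter (fun χ : IrrCharacter G => χ ∈ B ∧ blockHeight 2 B (χ : G → ℂ) = 0)).card := by
    rw [Nat.card_eq_fintype_card, Fintype.card_subtype]
  rw [hc]
  exact sambale_arith _ m _ _ h1 h2 h3

end Main

end Cfsg.Agent.Lib.BPair
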